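import Cfsg.Agent.SignedClasses.Tuples
import Cfsg.Agent.SignedClasses.Series

/-!
Counts of self-reciprocal tuples with conditions on each slot.
-/

set_option autoImplicit false

namespace CfsgLib.OmegaClasses

open Polynomial CfsgLib.GLClassCount CfsgLib.GUClassCount CfsgLib.SignedClasses
open scoped Classical

/-- Count of tuples from slot counts. -/
def bndC (c : ℕ → ℕ → ℕ) : ℕ → ℕ → ℕ → ℕ
  | 0, _, w => if w = 0 then 1 else 0
  | k + 1, i, w => ∑ d ∈ Finset.range (w / (i + 1) + 1), c i d * bndC c k (i + 1) (w - (i + 1) * d)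

theorem bndS_eq (q : ℕ) (σ : ℕ → Bool) : ∀ k i w, bndS q σ k i w = bndC (fun i d => cntS q (σ i) d) k i w := by
  intro k
  induction k with
  | zero => intro i w; rfl
  | succ k ih => intro i w; simp only [bndS, bndC, ih]

theorem bndC_mono {c c' : ℕ → ℕ → ℕ} : ∀ k i w, (∀ l, i ≤ l → ∀ d, c l d ≤ c' l d) → bndC c k i w ≤ bndC c' k i w := by
  intro k
  induction k with
  | zero => intro i w _; exact le_rfl
  | succ k ih =>
    intro i w h
    exact Finset.sum_le_sum fun d _ => Nat.mul_le_mul (h i le_rfl d) (ih _ _ fun l hl => h l (by omega))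

/-- Number of self-reciprocal polynomials. -/
def srl (q d : ℕ) : ℕ := if Even d then (if d = 0 then 1 else q ^ (d / 2) + q ^ (d / 2 - 1)) else 2 * q ^ (d / 2)

/-- Number of self-reciprocal polynomials with simple roots at `1` and `-1`. -/
def simpB (q d : ℕ) : ℕ := if Even d then q ^ (d / 2) else if d = 1 then 2 else 2 * ((q - 1) * q ^ (d / 2 - 1))

/-- Slot counts for the split classes. -/
def splitC (q i d : ℕ) : ℕ := if i = 0 then simpB q d else if sigmaOrth i then srl q d else ev q d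

variable {F : Type*} [Field F] [Fintype F]

theorem card_sr_le (h2 : (2 : F) ≠ 0) (d : ℕ) : Nat.card (SR F d) ≤ srl (Fintype.card F) d := by
  unfold srl
  rcases Nat.even_or_odd d with ⟨r, rfl⟩ | ⟨r, rfl⟩
  · rw [if_pos ⟨r, rfl⟩]
    rcases r with _ | r
    · rw [if_pos rfl]; exact card_sr_zero
    · rw [if_neg (by omega), show (r + 1 + (r + 1)) / 2 = r + 1 by omega, show r + 1 + (r + 1) = 2 * (r + 1) by ring,
        Nat.add_sub_cancel]
      exact card_sr_even h2 r
  · rw [if_neg (Nat.not_even_iff_odd.mpr ⟨r, rfl⟩), show (2 * r + 1) / 2 = r by omega]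
    exact card_sr_odd r

theorem recip_coeff_zero_one (h2 : (2 : F) ≠ 0) {f : F[X]} (hf : f.Monic) (h0 : f.coeff 0 ≠ 0) (h : recip f = f)
    (hs : ∀ δ : F, δ * δ = 1 → f.rootMultiplicity δ ≤ 1) {r : ℕ} (hd : f.natDegree = 2 * r) (hc : f.coeff 0 = 1) :
    f.eval 1 ≠ 0 := by
  intro hroot
  obtain ⟨g, hg⟩ := dvd_iff_isRoot.mpr (show f.IsRoot 1 from hroot)
  have hgm : g.Monic := (monic_X_sub_C 1).of_mul_monic_left (hg ▸ hf)
  have hg0 : g.coeff 0 ≠ 0 := fun e => h0 (by rw [hg, mul_coeff_zero, e, mul_zero])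
  have hgr : recip g = g := recip_div (one_mul 1) h hg
  have hc' : g.coeff 0 = -1 := by
    rw [hg, mul_coeff_zero, coeff_sub, coeff_X_zero, coeff_C_zero, zero_sub, neg_one_mul, neg_eq_iff_eq_neg] at hc
    exact hc
  have hg1 := eval_recip hgm hg0 hgr (one_mul 1)
  rw [one_pow, mul_one, hc', neg_one_mul] at hg1
  have hg1' : g.eval 1 = 0 := (mul_eq_zero.mp (show (2 : F) * g.eval 1 = 0 by linear_combination hg1)).resolve_left h2
  have hm := hs 1 (one_mul 1)
  rw [hg, rootMultiplicity_mul (hg ▸ hf.ne_zero), rootMultiplicity_X_sub_C_self] at hm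
  have := (rootMultiplicity_pos hgm.ne_zero).mpr (show g.IsRoot 1 from hg1')
  omega

theorem card_simple_le (h2 : (2 : F) ≠ 0) (d : ℕ) :
    Nat.card {f : SR F d // ∀ δ : F, δ * δ = 1 → f.1.1.rootMultiplicity δ ≤ 1} ≤ simpB (Fintype.card F) d := by
  have := finite_SR (F := F) d
  unfold simpB
  rcases Nat.even_or_odd d with ⟨r, rfl⟩ | ⟨r, rfl⟩
  · rw [if_pos ⟨r, rfl⟩, show (r + r) / 2 = r by omega]
    rcases r with _ | r
    · rw [pow_zero]
      exact (Nat.card_le_card_of_injective (fun f => f.1) Subtype.val_injective).trans card_sr_zero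
    let P := fun f : {f : SR F (r + 1 + (r + 1)) // ∀ δ : F, δ * δ = 1 → f.1.1.rootMultiplicity δ ≤ 1} =>
      if f.1.1.1.coeff 0 = 1 then f.1.1.1 else (X - C 1) * (f.1.1.1 /ₘ (X - C (-1)))
    have hneg : ∀ f : {f : SR F (r + 1 + (r + 1)) // ∀ δ : F, δ * δ = 1 → f.1.1.rootMultiplicity δ ≤ 1},
        f.1.1.1.coeff 0 ≠ 1 → ∃ g, f.1.1.1 = (X - C (-1)) * g ∧ g.Monic ∧ g.coeff 0 ≠ 0 ∧ g.coeff 0 = -1 ∧ recip g = g ∧
          P f = (X - C 1) * g := fun f hf => by
      have hc := (coeff_zero_sq f.1.1.2.1 f.1.1.2.2.2 f.1.2).resolve_left hf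
      have he := eval_recip f.1.1.2.1 f.1.1.2.2.2 f.1.2 (show (-1 : F) * -1 = 1 by ring)
      rw [hc, f.1.1.2.2.1, show (-1 : F) ^ (r + 1 + (r + 1)) = 1 from Even.neg_one_pow ⟨r + 1, rfl⟩, mul_one,
        neg_one_mul] at he
      have he' : f.1.1.1.eval (-1) = 0 := (mul_eq_zero.mp
        (show (2 : F) * f.1.1.1.eval (-1) = 0 by linear_combination he)).resolve_left h2
      obtain ⟨g, hg⟩ := dvd_iff_isRoot.mpr (show f.1.1.1.IsRoot (-1) from he')
      have hgm : g.Monic := (monic_X_sub_C (-1)).of_mul_monic_left (hg ▸ f.1.1.2.1)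
      refine ⟨g, hg, hgm, fun e => f.1.1.2.2.2 (by rw [hg, mul_coeff_zero, e, mul_zero]), ?_,
        recip_div (by ring) f.1.2 hg, ?_⟩
      · rw [hg, mul_coeff_zero, coeff_sub, coeff_X_zero, coeff_C_zero, zero_sub, neg_neg, one_mul] at hc
        exact hc
      · simp only [P, if_neg hf]
        rw [hg, mul_divByMonic_cancel_left _ (monic_X_sub_C _)]
    have hP : ∀ f, (P f).coeff 0 = 1 ∧ (P f).Monic ∧ (P f).natDegree = r + 1 + (r + 1) ∧ recip (P f) = P f := fun f => by
      by_cases hf : f.1.1.1.coeff 0 = 1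
      · simp only [P, if_pos hf]; exact ⟨hf, f.1.1.2.1, f.1.1.2.2.1, f.1.2⟩
      · obtain ⟨g, hg, hgm, -, hgc, hgr, e⟩ := hneg f hf
        rw [e]
        refine ⟨by rw [mul_coeff_zero, hgc, coeff_sub, coeff_X_zero, coeff_C_zero]; ring, (monic_X_sub_C 1).mul hgm, ?_, ?_⟩
        · have := f.1.1.2.2.1
          rw [hg, (monic_X_sub_C _).natDegree_mul hgm, natDegree_X_sub_C] at this
          rw [(monic_X_sub_C _).natDegree_mul hgm, natDegree_X_sub_C]; omega
        · rw [recip, tilde_mul, show tilde (RingHom.id F) (X - C 1) = X - C 1 from recip_linear (one_mul 1),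
            show tilde (RingHom.id F) g = g from hgr]
    have hPinj : Function.Injective P := fun f g e => by
      refine Subtype.ext (Subtype.ext (Subtype.ext ?_))
      by_cases hf : f.1.1.1.coeff 0 = 1 <;> by_cases hg : g.1.1.1.coeff 0 = 1
      · simpa only [P, if_pos hf, if_pos hg] using e
      · obtain ⟨k, -, -, -, -, -, hk⟩ := hneg g hg
        simp only [P, if_pos hf] at e
        have h1 := recip_coeff_zero_one h2 f.1.1.2.1 f.1.1.2.2.2 f.1.2 f.2 (r := r + 1) (by rw [f.1.1.2.2.1]; omega) hf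
        simp only [P] at hk
        rw [e, hk, eval_mul, eval_sub, eval_X, eval_C, sub_self, zero_mul] at h1
        exact absurd rfl h1
      · obtain ⟨k, -, -, -, -, -, hk⟩ := hneg f hf
        rw [hk] at e
        simp only [P, if_pos hg] at e
        have h1 := recip_coeff_zero_one h2 g.1.1.2.1 g.1.1.2.2.2 g.1.2 g.2 (r := r + 1) (by rw [g.1.1.2.2.1]; omega) hg
        rw [← e, eval_mul, eval_sub, eval_X, eval_C, sub_self, zero_mul] at h1
        exact absurd rfl h1
      · obtain ⟨k, hk0, -, -, -, -, hk⟩ := hneg f hf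
        obtain ⟨l, hl0, -, -, -, -, hl⟩ := hneg g hg
        rw [hk, hl] at e
        rw [hk0, hl0, mul_left_cancel₀ (X_sub_C_ne_zero _) e]
    refine (Nat.card_le_card_of_injective (fun f => fun i : Fin (r + 1) => (P f).coeff ((i : ℕ) + 1))
      fun f g e => hPinj ?_).trans
      (by rw [Nat.card_fun, Nat.card_eq_fintype_card, Nat.card_eq_fintype_card (α := Fin (r + 1)), Fintype.card_fin])
    obtain ⟨hc, hm, hd, hr⟩ := hP f
    obtain ⟨hc', hm', hd', hr'⟩ := hP g
    have := sr_ext (r := r + 1) (F := F) (d := r + 1 + (r + 1))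
      (f := ⟨⟨P f, hm, hd, by rw [hc]; exact one_ne_zero⟩, hr⟩) (g := ⟨⟨P g, hm', hd', by rw [hc']; exact one_ne_zero⟩, hr'⟩)
      (by omega) (hc.trans hc'.symm) fun i hi hir _ => by
        obtain ⟨i, rfl⟩ : ∃ i', i = i' + 1 := ⟨i - 1, by omega⟩
        exact congrFun e ⟨i, by omega⟩
    exact congrArg (fun z : SR F (r + 1 + (r + 1)) => z.1.1) this
  · rw [if_neg (Nat.not_even_iff_odd.mpr ⟨r, rfl⟩)]
    rcases r with _ | r
    · rw [if_pos (by norm_num)]
      refine (Nat.card_le_card_of_injective (fun f => f.1) Subtype.val_injective).trans ?_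
      have := card_sr_odd (F := F) 0
      simpa using this
    rw [if_neg (by omega), show (2 * (r + 1) + 1) / 2 - 1 = r by omega]
    have hroot : ∀ f : {f : SR F (2 * (r + 1) + 1) // ∀ δ : F, δ * δ = 1 → f.1.1.rootMultiplicity δ ≤ 1},
        ∃ g, f.1.1.1 = (X - C (-f.1.1.1.coeff 0)) * g ∧ g.Monic ∧ g.natDegree = 2 * (r + 1) ∧ g.coeff 0 = 1 ∧
          recip g = g ∧ g.eval (-f.1.1.1.coeff 0) ≠ 0 := fun f => by
      obtain ⟨c, hc⟩ : ∃ c, c = f.1.1.1.coeff 0 := ⟨_, rfl⟩
      have hcc : c * c = 1 := by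
        rcases coeff_zero_sq f.1.1.2.1 f.1.1.2.2.2 f.1.2 with h | h <;> rw [hc, h] <;> ring
      have hδ : -c * -c = 1 := by rw [neg_mul_neg, hcc]
      have he := eval_recip f.1.1.2.1 f.1.1.2.2.2 f.1.2 hδ
      rw [← hc, f.1.1.2.2.1, pow_succ, pow_mul, sq, hδ, one_pow, one_mul] at he
      have he' : f.1.1.1.eval (-c) = 0 := (mul_eq_zero.mp (show (2 : F) * f.1.1.1.eval (-c) = 0 by
        linear_combination he - f.1.1.1.eval (-c) * hcc)).resolve_left h2
      obtain ⟨g, hg⟩ := dvd_iff_isRoot.mpr (show f.1.1.1.IsRoot (-c) from he')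
      have hgm : g.Monic := (monic_X_sub_C (-c)).of_mul_monic_left (hg ▸ f.1.1.2.1)
      rw [← hc]
      refine ⟨g, hg, hgm, ?_, ?_, recip_div hδ f.1.2 hg, fun h0 => ?_⟩
      · have := f.1.1.2.2.1
        rw [hg, (monic_X_sub_C _).natDegree_mul hgm, natDegree_X_sub_C] at this; omega
      · have h1 := hc
        rw [hg, mul_coeff_zero, coeff_sub, coeff_X_zero, coeff_C_zero, zero_sub, neg_neg] at h1
        exact (mul_eq_left₀ (fun h => by rw [h, mul_zero] at hcc; exact zero_ne_one hcc)).mp h1.symm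
      · have hm := f.2 (-c) hδ
        rw [hg, rootMultiplicity_mul (hg ▸ f.1.1.2.1.ne_zero), rootMultiplicity_X_sub_C_self] at hm
        have := (rootMultiplicity_pos hgm.ne_zero).mpr (show g.IsRoot (-c) from h0)
        omega
    choose g hg hgm hgd hgc hgr hge using hroot
    let Ψ : {f : SR F (2 * (r + 1) + 1) // ∀ δ : F, δ * δ = 1 → f.1.1.rootMultiplicity δ ≤ 1} →
        {x : F // x = 1 ∨ x = -1} × {x : F // x ≠ 0} × (Fin r → F) := fun f =>
      (⟨f.1.1.1.coeff 0, coeff_zero_sq f.1.1.2.1 f.1.1.2.2.2 f.1.2⟩,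
        ⟨(g f).eval (-f.1.1.1.coeff 0), hge f⟩, fun i => (g f).coeff ((i : ℕ) + 1))
    have hΨ : Function.Injective Ψ := fun f f' e => by
      simp only [Ψ, Prod.mk.injEq, Subtype.mk.injEq] at e
      obtain ⟨e1, e2, e3⟩ := e
      have hne : -f.1.1.1.coeff 0 ≠ 0 := neg_ne_zero.mpr f.1.1.2.2.2
      have hlow : ∀ i, i ≤ 2 * (r + 1) → i ≠ r + 1 → (g f).coeff i = (g f').coeff i := by
        intro i hi hir
        have hsm : ∀ i, i ≤ r → (g f).coeff i = (g f').coeff i := fun i hi => by
          rcases Nat.eq_zero_or_pos i with rfl | h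
          · rw [hgc, hgc]
          · obtain ⟨i, rfl⟩ : ∃ i', i = i' + 1 := ⟨i - 1, by omega⟩
            exact congrFun e3 ⟨i, by omega⟩
        rcases lt_or_gt_of_ne hir with h | h
        · exact hsm i (by omega)
        · rw [coeff_recip (hgm f) (by rw [hgc]; exact one_ne_zero) (hgr f) (by rw [hgd]; exact hi),
            coeff_recip (hgm f') (by rw [hgc]; exact one_ne_zero) (hgr f') (by rw [hgd]; exact hi), hgd, hgd, hgc, hgc,
            hsm (2 * (r + 1) - i) (by omega)]
      have hdiff : g f - g f' = C ((g f).coeff (r + 1) - (g f').coeff (r + 1)) * X ^ (r + 1) := by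
        ext i
        rw [coeff_sub, coeff_C_mul, coeff_X_pow]
        by_cases hi : i = r + 1
        · subst hi; simp
        · rw [if_neg hi, mul_zero]
          rcases le_or_gt i (2 * (r + 1)) with h | h
          · rw [hlow i h hi, sub_self]
          · rw [coeff_eq_zero_of_natDegree_lt (by rw [hgd]; exact h),
              coeff_eq_zero_of_natDegree_lt (by rw [hgd]; exact h), sub_self]
      have hev := congrArg (Polynomial.eval (-f.1.1.1.coeff 0)) hdiff
      rw [eval_sub, eval_mul, eval_C, eval_pow, eval_X] at hev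
      conv at hev => lhs; arg 2; rw [e1]
      rw [e2, sub_self] at hev
      rw [(mul_eq_zero.mp hev.symm).resolve_right (pow_ne_zero _ hne), C_0, zero_mul, sub_eq_zero] at hdiff
      refine Subtype.ext (Subtype.ext (Subtype.ext ?_))
      rw [hg f, hg f', hdiff, e1]
    refine (Nat.card_le_card_of_injective Ψ hΨ).trans ?_
    rw [Nat.card_prod, Nat.card_prod, Nat.card_fun, Nat.card_eq_fintype_card (α := Fin r), Fintype.card_fin,
      Nat.card_eq_fintype_card (α := F)]
    refine Nat.mul_le_mul ?_ (Nat.mul_le_mul_right _ ?_)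
    · rw [Nat.card_eq_fintype_card, Fintype.card_subtype]
      refine (Finset.card_le_card (t := {1, -1}) fun x hx => ?_).trans Finset.card_le_two
      simpa using hx
    · rw [Nat.card_eq_fintype_card, Fintype.card_subtype_compl, Fintype.card_subtype_eq]

/-- Self-reciprocal tuples with a condition on each slot. -/
abbrev GTup (F : Type*) [Field F] (P : ℕ → F[X] → Prop) (n i w : ℕ) :=
  {h : Tuples F n i w // ∀ j : Fin n, recip (h.1 j) = h.1 j ∧ P j (h.1 j)}

theorem finite_gtup (P : ℕ → F[X] → Prop) (n i w : ℕ) (hi : i ≤ n) : Finite (GTup F P n i w) :=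
  have := (tuples_bound F n (n - i) i w (by omega)).1
  inferInstance

theorem gtup_bound (P : ℕ → F[X] → Prop) (hP1 : ∀ l, P l 1) (c : ℕ → ℕ → ℕ)
    (hc : ∀ l d, Nat.card {f : SR F d // P l f.1.1} ≤ c l d) (n : ℕ) : ∀ k i w, i + k = n →
    Nat.card (GTup F P n i w) ≤ bndC c k i w := by
  intro k
  induction k with
  | zero =>
    intro i w hi
    have := finite_gtup P n i w (by omega)
    have hone : ∀ (h : Tuples F n i w) j, h.1 j = 1 := fun h j => h.2.2.1 j (by omega)
    have hsub : Subsingleton (GTup F P n i w) :=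
      ⟨fun h g => Subtype.ext (Subtype.ext (funext fun j => (hone h.1 j).trans (hone g.1 j).symm))⟩
    by_cases hw : w = 0
    · rw [bndC, if_pos hw]; exact Finite.card_le_one_iff_subsingleton.mpr hsub
    · have : IsEmpty (GTup F P n i w) := ⟨fun h => hw (by
        rw [← h.1.2.2.2]; exact Finset.sum_eq_zero fun j _ => by rw [hone h.1 j]; simp)⟩
      rw [bndC, if_neg hw, Nat.card_of_isEmpty]
  | succ k ih =>
    intro i w hi
    let j₀ : Fin n := ⟨i, by omega⟩
    have hsum : ∀ h : GTup F P n i w, (i + 1) * (h.1.1 j₀).natDegree +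
        ∑ j : Fin n, ((j : ℕ) + 1) * (Function.update h.1.1 j₀ 1 j).natDegree = w := fun h => by
      conv_rhs => rw [← h.1.2.2.2]
      rw [← Finset.add_sum_erase _ _ (Finset.mem_univ j₀), ← Finset.add_sum_erase _ _ (Finset.mem_univ j₀),
        Function.update_self, natDegree_one, Nat.mul_zero, Nat.zero_add]
      refine congrArg _ (Finset.sum_congr rfl fun j hj => ?_)
      rw [Function.update_of_ne (Finset.ne_of_mem_erase hj)]
    have hd : ∀ h : GTup F P n i w, (h.1.1 j₀).natDegree < w / (i + 1) + 1 := fun h => by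
      rw [Nat.lt_succ_iff, Nat.le_div_iff_mul_le (Nat.succ_pos i), mul_comm]
      exact (Nat.le_add_right _ _).trans (hsum h).le
    let T := Σ d : Fin (w / (i + 1) + 1), {f : SR F d // P i f.1.1} × GTup F P n (i + 1) (w - (i + 1) * d)
    let Φ : GTup F P n i w → T := fun h =>
      ⟨⟨_, hd h⟩, ⟨⟨⟨h.1.1 j₀, (h.1.2.1 j₀).1, rfl, (h.1.2.1 j₀).2⟩, (h.2 j₀).1⟩, (h.2 j₀).2⟩,
        ⟨⟨Function.update h.1.1 j₀ 1, fun j => by
        rcases eq_or_ne j j₀ with rfl | hj
        · rw [Function.update_self]; exact ⟨monic_one, by simp⟩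
        · rw [Function.update_of_ne hj]; exact h.1.2.1 j, fun j hj => by
        rcases eq_or_ne j j₀ with rfl | hj'
        · rw [Function.update_self]
        · rw [Function.update_of_ne hj']
          exact h.1.2.2.1 j (lt_of_le_of_ne (Nat.lt_succ_iff.mp hj) fun e => hj' (Fin.ext e)), by
        have := hsum h; dsimp only; omega⟩, fun j => by
          dsimp only
          rcases eq_or_ne j j₀ with rfl | hj
          · rw [Function.update_self]
            exact ⟨tilde_one _, hP1 _⟩
          · rw [Function.update_of_ne hj]; exact h.2 j⟩⟩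
    have hΦ : Function.Injective Φ := fun h g e => by
      have e1 := congrArg (fun t : T => t.2.1.1.1.1) e
      have e2 := congrArg (fun t : T => t.2.2.1.1) e
      refine Subtype.ext (Subtype.ext (funext fun j => ?_))
      rcases eq_or_ne j j₀ with rfl | hj
      · exact e1
      · have := congrFun e2 j
        simpa only [Φ, Function.update_of_ne hj] using this
    have hfs : ∀ d, Finite (SR F d) := fun d => finite_SR d
    have hft : ∀ d : ℕ, Finite (GTup F P n (i + 1) (w - (i + 1) * d)) := fun d => finite_gtup P n _ _ (by omega)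
    refine (Nat.card_le_card_of_injective Φ hΦ).trans ?_
    rw [Nat.card_sigma, bndC, ← Fin.sum_univ_eq_sum_range (fun d => c i d * bndC c k (i + 1) (w - (i + 1) * d))]
    refine Finset.sum_le_sum fun d _ => ?_
    rw [Nat.card_prod]
    exact Nat.mul_le_mul (hc i d) (ih (i + 1) _ (by omega))

/-- The bound for tuples with simple roots in the first slot. -/
theorem card_simple_tuples (h2 : (2 : F) ≠ 0) (n : ℕ) (hn : 0 < n) :
    Nat.card {h : STup F sigmaOrth n 0 n // ∀ δ : F, δ * δ = 1 → (h.1.1 ⟨0, hn⟩).rootMultiplicity δ ≤ 1} ≤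
      bndC (splitC (Fintype.card F)) n 0 n := by
  obtain ⟨P, hP⟩ : ∃ P : ℕ → F[X] → Prop, P = fun l f =>
    (l = 0 → ∀ δ : F, δ * δ = 1 → f.rootMultiplicity δ ≤ 1) ∧
      (sigmaOrth l = false → ∀ δ : F, δ * δ = 1 → Even (f.rootMultiplicity δ)) := ⟨_, rfl⟩
  have hPd : ∀ l f, P l f → (l = 0 → ∀ δ : F, δ * δ = 1 → f.rootMultiplicity δ ≤ 1) ∧
      (sigmaOrth l = false → ∀ δ : F, δ * δ = 1 → Even (f.rootMultiplicity δ)) := fun l f h => by rw [hP] at h; exact h
  have := finite_gtup P n 0 n (Nat.zero_le n)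
  refine le_trans (Nat.card_le_card_of_injective (fun h : {h : STup F sigmaOrth n 0 n //
    ∀ δ : F, δ * δ = 1 → (h.1.1 ⟨0, hn⟩).rootMultiplicity δ ≤ 1} => (⟨h.1.1, fun j => ⟨(h.1.2 j).1, by
      rw [hP]; exact ⟨fun hj => by rw [show j = ⟨0, hn⟩ from Fin.ext hj]; exact h.2, (h.1.2 j).2⟩⟩⟩ : GTup F P n 0 n))
      fun a b e => Subtype.ext (Subtype.ext (congrArg (fun t : GTup F P n 0 n => t.1) e :))) ?_
  refine gtup_bound P (fun l => ?_) _ (fun l d => ?_) n n 0 n (Nat.zero_add n)
  · rw [hP]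
    refine ⟨fun _ δ _ => ?_, fun _ δ _ => ?_⟩
    · rw [rootMultiplicity_eq_zero (by simp [IsRoot])]; omega
    · rw [rootMultiplicity_eq_zero (by simp [IsRoot])]; exact ⟨0, rfl⟩
  · have := finite_SR (F := F) d
    unfold splitC
    split_ifs with hl hs
    · refine le_trans ?_ (card_simple_le h2 d)
      exact Nat.card_le_card_of_injective (fun f => ⟨f.1, (hPd _ _ f.2).1 hl⟩) fun a b e =>
        Subtype.ext (congrArg Subtype.val e :)
    · exact (Nat.card_le_card_of_injective (fun f => f.1) Subtype.val_injective).trans (card_sr_le h2 d)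
    · refine le_trans ?_ (card_even_roots h2 d)
      exact Nat.card_le_card_of_injective (fun f => ⟨f.1, (hPd _ _ f.2).2 (by simpa using hs)⟩) fun a b e =>
        Subtype.ext (congrArg Subtype.val e :)

end CfsgLib.OmegaClasses
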