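import Cfsg.Agent.OmegaClasses.Count

/-!
Parity-split numerical bounds for odd weights, `q ≥ 3`.
-/

set_option autoImplicit false

namespace CfsgLib.OmegaClasses

open Finset CfsgLib.SignedClasses

/-- Upper shape of a slot count. -/
def shape (q : ℕ) (a : ℕ → ℕ) (d : ℕ) : ℕ := ∑ l ∈ range 5, if l ≤ d then a l * ev q (d - l) else 0

/-- Coefficients for weighted slots. -/
def aS (l : ℕ) : ℕ := Nat.choose 4 l

/-- Coefficients for unweighted slots. -/
def aR (l : ℕ) : ℕ := Nat.choose 2 l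

theorem sg_le_shape (q d : ℕ) : sg q d ≤ shape q aS d := by
  refine sum_le_sum fun l _ => ?_
  unfold ev aS
  split_ifs <;> simp_all

theorem srl_le_shape (q d : ℕ) : srl q d ≤ shape q aR d := by
  simp only [shape, aR, sum_range_succ, sum_range_zero, srl, ev]
  rcases Nat.even_or_odd d with ⟨r, rfl⟩ | ⟨r, rfl⟩
  · rw [if_pos ⟨r, rfl⟩]
    rcases r with _ | r
    · simp
    · rw [if_neg (by omega), if_pos (Nat.zero_le _), if_pos (by omega : 1 ≤ r + 1 + (r + 1)),
        if_pos (by omega : 2 ≤ r + 1 + (r + 1))]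
      have e1 : Even (r + 1 + (r + 1) - 0) := ⟨r + 1, rfl⟩
      have e2 : Even (r + 1 + (r + 1) - 2) := ⟨r, by omega⟩
      have e3 : (r + 1 + (r + 1) - 2) / 2 = r := by omega
      rw [if_pos e1, if_pos e2, e3]
      norm_num [Nat.choose]
      rw [show (r + 1 + (r + 1)) / 2 = r + 1 by omega, Nat.add_sub_cancel]
      omega
  · rw [if_neg (Nat.not_even_iff_odd.mpr ⟨r, rfl⟩), if_pos (Nat.zero_le _), if_pos (by omega : 1 ≤ 2 * r + 1)]
    have e1 : Even (2 * r + 1 - 1) := ⟨r, by omega⟩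
    rw [if_pos e1, show (2 * r + 1 - 1) / 2 = r by omega, show (2 * r + 1) / 2 = r by omega]
    norm_num [Nat.choose]

theorem srl_le_sg (q d : ℕ) : srl q d ≤ sg q d := by
  refine (srl_le_shape q d).trans ?_
  refine sum_le_sum fun l _ => ?_
  have h : aR l ≤ Nat.choose 4 l := Nat.choose_le_choose l (by norm_num)
  unfold ev
  split_ifs <;> simp_all
  exact Nat.mul_le_mul_right _ h

theorem shape_series (q : ℕ) (a : ℕ → ℕ) {x : ℝ} (hx : 0 ≤ x) (hqx : (q : ℝ) * x ^ 2 < 1) (n : ℕ) (e : Bool) :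
    ∑ d ∈ (range n).filter (fun d => (d % 2 == 0) = e), (shape q a d : ℝ) * x ^ d ≤
      (∑ l ∈ range 5, if (l % 2 == 0) = e then (a l : ℝ) * x ^ l else 0) / (1 - (q : ℝ) * x ^ 2) := by
  simp only [shape, Nat.cast_sum, sum_mul]
  rw [sum_comm, sum_div]
  refine sum_le_sum fun l _ => ?_
  split_ifs with he
  · rw [mul_div_assoc, div_eq_mul_one_div (x ^ l)]
    refine le_trans ?_ (mul_le_mul_of_nonneg_left (mul_le_mul_of_nonneg_left (ev_series q hx hqx n) (pow_nonneg hx l))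
      (Nat.cast_nonneg _))
    rw [← mul_assoc, mul_sum, ← sum_filter_of_ne (p := fun d => l ≤ d) fun d _ hd => by
      by_contra ho; exact hd (by simp [ho])]
    rw [sum_congr rfl fun d hd => show ((if l ≤ d then a l * ev q (d - l) else 0 : ℕ) : ℝ) * x ^ d =
      (a l : ℝ) * x ^ l * ((ev q (d - l) : ℝ) * x ^ (d - l)) by
        have hle := (mem_filter.mp hd).2
        conv_lhs => arg 2; rw [← Nat.add_sub_cancel' hle, pow_add]
        rw [if_pos hle]; push_cast; ring,
      ← sum_image (g := fun d => d - l) (f := fun v => (a l : ℝ) * x ^ l * ((ev q v : ℝ) * x ^ v))]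
    · refine sum_le_sum_of_subset_of_nonneg (fun r hr => ?_) fun r _ _ => by positivity
      obtain ⟨d, hd, rfl⟩ := mem_image.mp hr
      have := mem_range.mp (mem_filter.mp (mem_filter.mp hd).1).1
      exact mem_range.mpr (by omega)
    · intro a ha b hb e
      have := (mem_filter.mp ha).2
      have := (mem_filter.mp hb).2
      simp only at e; omega
  · rw [zero_div]
    refine le_of_eq (sum_eq_zero fun d hd => ?_)
    have hde := (mem_filter.mp hd).2
    by_cases hl : l ≤ d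
    · rw [if_pos hl, ev, if_neg, mul_zero, Nat.cast_zero, zero_mul]
      intro hev
      rw [Nat.even_iff] at hev
      refine he ?_
      rw [← hde, show l % 2 = d % 2 by omega]
    · rw [if_neg hl, Nat.cast_zero, zero_mul]

/-- Both parity halves of the scaled partial sums. -/
def Bnd (c : ℕ → ℕ → ℕ) (u : ℝ) (k i : ℕ) (E O : ℝ) : Prop :=
  ∀ n, (∑ w ∈ (range n).filter (fun w => w % 2 = 0), (bndC c k i w : ℝ) * u ^ w ≤ E) ∧
    (∑ w ∈ (range n).filter (fun w => w % 2 = 1), (bndC c k i w : ℝ) * u ^ w ≤ u * O)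

theorem conv_gen (c : ℕ → ℕ → ℕ) {u : ℝ} (hu : 0 ≤ u) (k i n r : ℕ) :
    ∑ w ∈ (range n).filter (fun w => w % 2 = r), (bndC c (k + 1) i w : ℝ) * u ^ w ≤
      ∑ s ∈ range 2, ∑ t ∈ range 2, if (s + t) % 2 = r then
        (∑ d ∈ (range n).filter (fun d => (i + 1) * d % 2 = s), (c i d : ℝ) * u ^ ((i + 1) * d)) *
          ∑ v ∈ (range n).filter (fun v => v % 2 = t), (bndC c k (i + 1) v : ℝ) * u ^ v else 0 := by
  have h1 : ∑ w ∈ (range n).filter (fun w => w % 2 = r), (bndC c (k + 1) i w : ℝ) * u ^ w =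
      ∑ x ∈ ((range n).filter (fun w => w % 2 = r)).sigma fun w => range (w / (i + 1) + 1),
        (c i x.2 : ℝ) * u ^ ((i + 1) * x.2) *
          ((bndC c k (i + 1) (x.1 - (i + 1) * x.2) : ℝ) * u ^ (x.1 - (i + 1) * x.2)) := by
    rw [sum_sigma]
    refine sum_congr rfl fun w _ => ?_
    rw [bndC, Nat.cast_sum, sum_mul]
    refine sum_congr rfl fun d hd => ?_
    have : (i + 1) * d ≤ w := by
      rw [mul_comm]; exact (Nat.le_div_iff_mul_le (by omega)).mp (Nat.lt_succ_iff.mp (mem_range.mp hd))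
    conv_lhs => rw [← Nat.add_sub_cancel' this, pow_add, Nat.add_sub_cancel' this]
    push_cast
    ring
  rw [h1, ← sum_image (g := fun x : (_ : ℕ) × ℕ => (x.2, x.1 - (i + 1) * x.2))
    (f := fun p : ℕ × ℕ => (c i p.1 : ℝ) * u ^ ((i + 1) * p.1) * ((bndC c k (i + 1) p.2 : ℝ) * u ^ p.2))]
  · refine le_trans (b := ∑ p ∈ ((range n) ×ˢ (range n)).filter (fun p => ((i + 1) * p.1 + p.2) % 2 = r),
      (c i p.1 : ℝ) * u ^ ((i + 1) * p.1) * ((bndC c k (i + 1) p.2 : ℝ) * u ^ p.2)) ?_ (le_of_eq ?_)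
    · refine sum_le_sum_of_subset_of_nonneg ?_ fun p _ _ => by positivity
      intro p hp
      simp only [mem_image, mem_sigma, mem_range, mem_filter] at hp
      obtain ⟨⟨w, d⟩, ⟨⟨hw, hwr⟩, hd⟩, rfl⟩ := hp
      dsimp only at hw hd hwr
      have hdw : (i + 1) * d ≤ w := by
        rw [mul_comm]; exact (Nat.le_div_iff_mul_le (by omega)).mp (Nat.lt_succ_iff.mp hd)
      simp only [mem_filter, mem_product, mem_range]
      refine ⟨⟨lt_of_le_of_lt (le_trans (Nat.le_mul_of_pos_left d (by omega)) hdw) hw, by omega⟩, ?_⟩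
      rwa [Nat.add_sub_cancel' hdw]
    · rw [sum_filter, sum_product]
      simp only [sum_range_succ, sum_range_zero, sum_filter, sum_mul_sum, zero_add]
      rcases (show r = 0 ∨ r = 1 ∨ 2 ≤ r by omega) with rfl | rfl | hr2
      · simp only [Nat.add_zero, Nat.zero_add, Nat.zero_mod, if_true, show (1 + 1) % 2 = 0 from rfl, Nat.one_mod,
          if_false, one_ne_zero, add_zero, zero_add, ← sum_add_distrib]
        refine sum_congr rfl fun d _ => sum_congr rfl fun v _ => ?_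
        have := Nat.mod_two_eq_zero_or_one ((i + 1) * d)
        have := Nat.mod_two_eq_zero_or_one v
        split_ifs <;> first | ring1 | omega
      · simp only [Nat.add_zero, Nat.zero_add, Nat.zero_mod, if_true, show (1 + 1) % 2 = 0 from rfl, Nat.one_mod,
          zero_ne_one, if_false, add_zero, zero_add, ← sum_add_distrib]
        refine sum_congr rfl fun d _ => sum_congr rfl fun v _ => ?_
        have := Nat.mod_two_eq_zero_or_one ((i + 1) * d)
        have := Nat.mod_two_eq_zero_or_one v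
        split_ifs <;> first | ring1 | omega
      · have hn : ∀ a : ℕ, ¬ a % 2 = r := fun a => by omega
        simp [hn, show (0 : ℕ) ≠ r by omega, show (1 : ℕ) ≠ r by omega]
  · rintro ⟨w, d⟩ hx ⟨w', d'⟩ hx' e
    simp only [mem_coe, mem_sigma, mem_range] at hx hx'
    simp only [Prod.mk.injEq] at e
    obtain ⟨rfl, e⟩ := e
    have h1 : (i + 1) * d ≤ w := by
      rw [mul_comm]; exact (Nat.le_div_iff_mul_le (by omega)).mp (Nat.lt_succ_iff.mp hx.2)
    have h2 : (i + 1) * d ≤ w' := by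
      rw [mul_comm]; exact (Nat.le_div_iff_mul_le (by omega)).mp (Nat.lt_succ_iff.mp hx'.2)
    obtain rfl : w = w' := by omega
    rfl

theorem Bnd.step {c : ℕ → ℕ → ℕ} {u : ℝ} (hu : 0 ≤ u) (hu2 : u ^ 2 ≤ 1 / 3) {k i : ℕ} {E O fe fo : ℝ}
    (h : Bnd c u k (i + 1) E O) (hE : 0 ≤ E) (hO : 0 ≤ O) (hfe : 0 ≤ fe) (hfo : 0 ≤ fo)
    (hf : ∀ n, (∑ d ∈ (range n).filter (fun d => (i + 1) * d % 2 = 0), (c i d : ℝ) * u ^ ((i + 1) * d) ≤ fe) ∧
      (∑ d ∈ (range n).filter (fun d => (i + 1) * d % 2 = 1), (c i d : ℝ) * u ^ ((i + 1) * d) ≤ u * fo)) :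
    Bnd c u (k + 1) i (fe * E + fo * O / 3) (fe * O + fo * E) := by
  intro n
  obtain ⟨h0, h1⟩ := h n
  obtain ⟨f0, f1⟩ := hf n
  refine ⟨(conv_gen c hu k i n 0).trans ?_, (conv_gen c hu k i n 1).trans ?_⟩ <;>
    simp only [sum_range_succ, sum_range_zero, Nat.zero_add, Nat.add_zero, zero_add, add_zero, Nat.zero_mod,
      Nat.one_mod, if_true, show (1 + 1) % 2 = 0 from rfl, one_ne_zero, zero_ne_one, if_false]
  · have e1 := mul_le_mul f0 h0 (sum_nonneg fun v _ => by positivity) hfe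
    have e2 := mul_le_mul f1 h1 (sum_nonneg fun v _ => by positivity) (mul_nonneg hu hfo)
    have e3 : u * fo * (u * O) ≤ fo * O / 3 := by nlinarith [mul_nonneg hfo hO]
    linarith
  · have e1 := mul_le_mul f0 h1 (sum_nonneg fun v _ => by positivity) hfe
    have e2 := mul_le_mul f1 h0 (sum_nonneg fun v _ => by positivity) (mul_nonneg hu hfo)
    linarith

/-- Rational factors of an index. -/
noncomputable def fac (a : ℕ → ℕ) (i : ℕ) : ℝ × ℝ :=
  if i % 2 = 0 then
    ((1 + (a 2 : ℝ) * (1 / 3) ^ (i + 1) + (a 4 : ℝ) * ((1 / 3) ^ (i + 1)) ^ 2) / (1 - (1 / 3) ^ i),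
      (1 / 3) ^ (i / 2) * ((a 1 : ℝ) + (a 3 : ℝ) * (1 / 3) ^ (i + 1)) / (1 - (1 / 3) ^ i))
  else (1 / (1 - (1 / 3) ^ i), 0)

/-- Iterated bounds from index `14 - t`. -/
noncomputable def pairB (a : ℕ → ℕ) : ℕ → ℝ × ℝ
  | 0 => (1 / (1 - 7 * (1 / 3) ^ 7), 7 * (1 / 3) ^ 6 * (578 / 1000) / (1 - 7 * (1 / 3) ^ 7))
  | t + 1 => ((fac a (13 - t)).1 * (pairB a t).1 + (fac a (13 - t)).2 * (pairB a t).2 / 3,
      (fac a (13 - t)).1 * (pairB a t).2 + (fac a (13 - t)).2 * (pairB a t).1)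

variable {q : ℕ} {u : ℝ}

theorem fac_nonneg (a : ℕ → ℕ) (i : ℕ) (hi : 1 ≤ i) : 1 ≤ (fac a i).1 ∧ 0 ≤ (fac a i).2 := by
  have h1 : (1 / 3 : ℝ) ^ i < 1 := third_pow_lt (by omega)
  have h0 : (0 : ℝ) ≤ (1 / 3) ^ i := by positivity
  have hd : 0 < 1 - (1 / 3 : ℝ) ^ i := by linarith
  unfold fac
  split_ifs
  · have h2 : (0 : ℝ) ≤ (a 2 : ℝ) * (1 / 3) ^ (i + 1) := by positivity
    have h4 : (0 : ℝ) ≤ (a 4 : ℝ) * ((1 / 3) ^ (i + 1)) ^ 2 := by positivity
    exact ⟨by rw [le_div_iff₀ hd]; linarith, div_nonneg (by positivity) hd.le⟩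
  · exact ⟨by rw [le_div_iff₀ hd]; linarith, le_rfl⟩

theorem pair_nonneg (a : ℕ → ℕ) : ∀ t, t ≤ 12 → 1 ≤ (pairB a t).1 ∧ 0 ≤ (pairB a t).2
  | 0, _ => by simp only [pairB]; norm_num
  | t + 1, ht => by
    obtain ⟨h1, h2⟩ := pair_nonneg a t (by omega)
    obtain ⟨h3, h4⟩ := fac_nonneg a (13 - t) (by omega)
    simp only [pairB]
    refine ⟨?_, add_nonneg (mul_nonneg (by linarith) h2) (mul_nonneg h4 (by linarith))⟩
    have := mul_nonneg h4 h2
    nlinarith

theorem fac_le (a : ℕ → ℕ) (ha : a 0 = 1) (c : ℕ → ℕ → ℕ) (hu0 : 0 ≤ u) (huq : (q : ℝ) * u ^ 2 = 1) (hq : 3 ≤ q) (i : ℕ)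
    (hi : 1 ≤ i) (hc : ∀ d, c i d ≤ if i % 2 = 0 then shape q a d else ev q d) (n : ℕ) :
    (∑ d ∈ (range n).filter (fun d => (i + 1) * d % 2 = 0), (c i d : ℝ) * u ^ ((i + 1) * d) ≤ (fac a i).1) ∧
      (∑ d ∈ (range n).filter (fun d => (i + 1) * d % 2 = 1), (c i d : ℝ) * u ^ ((i + 1) * d) ≤ u * (fac a i).2) := by
  obtain ⟨h1, -⟩ := u_lt hu0 huq hq
  obtain ⟨x, hx⟩ : ∃ x, x = u ^ (i + 1) := ⟨_, rfl⟩
  have hx0 : 0 ≤ x := hx ▸ pow_nonneg hu0 _
  have hqx : (q : ℝ) * x ^ 2 = (u ^ 2) ^ i := by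
    rw [hx, ← pow_mul, show (i + 1) * 2 = 2 + 2 * i by ring, pow_add, ← mul_assoc, huq, one_mul, pow_mul]
  have hz : (u ^ 2) ^ i ≤ (1 / 3) ^ i := pow_le_pow_left₀ (sq_nonneg u) h1 i
  have hlt : (1 / 3 : ℝ) ^ i < 1 := third_pow_lt (by omega)
  have hden : 0 < 1 - (1 / 3 : ℝ) ^ i := sub_pos.mpr hlt
  simp only [pow_mul u (i + 1), ← hx]
  unfold fac
  by_cases hpar : i % 2 = 0
  · simp only [hpar, if_true] at hc ⊢
    have hx2 : x ^ 2 ≤ (1 / 3) ^ (i + 1) := by
      rw [hx, ← pow_mul, mul_comm, pow_mul]; exact pow_le_pow_left₀ (sq_nonneg u) h1 _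
    have hmono : ∀ s : Finset ℕ, ∑ d ∈ s, (c i d : ℝ) * x ^ d ≤ ∑ d ∈ s, (shape q a d : ℝ) * x ^ d := fun s =>
      sum_le_sum fun d _ => mul_le_mul_of_nonneg_right (by exact_mod_cast hc d) (pow_nonneg hx0 d)
    have hsplit : ∀ d, (i + 1) * d % 2 = d % 2 := fun d => by
      rw [Nat.mul_mod, show (i + 1) % 2 = 1 by omega, one_mul, Nat.mod_mod]
    simp only [hsplit]
    constructor
    · refine (hmono _).trans ?_
      have hs := shape_series q a hx0 (by rw [hqx]; linarith) n true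
      simp only [beq_iff_eq] at hs
      refine hs.trans ?_
      rw [hqx]
      refine div_le_div₀ (by positivity) ?_ hden (by linarith)
      simp only [sum_range_succ, sum_range_zero]
      norm_num [ha]
      have e4 : x ^ 4 ≤ ((1 / 3 : ℝ) ^ (i + 1)) ^ 2 := by
        rw [show x ^ 4 = (x ^ 2) ^ 2 by ring]; exact pow_le_pow_left₀ (sq_nonneg x) hx2 2
      norm_num at e4 hx2 ⊢
      gcongr
    · refine (hmono _).trans ?_
      have hs := shape_series q a hx0 (by rw [hqx]; linarith) n false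
      simp only [beq_eq_false_iff_ne, ne_eq, Nat.mod_two_ne_zero] at hs
      refine hs.trans ?_
      rw [hqx, ← mul_div_assoc]
      refine div_le_div₀ (by positivity) ?_ hden (by linarith)
      simp only [sum_range_succ, sum_range_zero]
      norm_num
      have hxu : x = u * (u ^ 2) ^ (i / 2) := by
        rw [hx, ← pow_mul, ← pow_succ']; congr 1; omega
      have hU : (u ^ 2) ^ (i / 2) ≤ (1 / 3) ^ (i / 2) := pow_le_pow_left₀ (sq_nonneg u) h1 _
      calc (a 1 : ℝ) * x + (a 3 : ℝ) * x ^ 3 = u * ((u ^ 2) ^ (i / 2) * ((a 1 : ℝ) + (a 3 : ℝ) * x ^ 2)) := by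
            rw [hxu]; ring
        _ ≤ _ := by
            norm_num at hU hx2
            refine mul_le_mul_of_nonneg_left (mul_le_mul hU ?_ (by positivity) (by positivity)) hu0
            gcongr
  · simp only [hpar, if_false] at hc ⊢
    have hev : ∀ d, (i + 1) * d % 2 = 0 := fun d => by rw [Nat.mul_mod, show (i + 1) % 2 = 0 by omega, zero_mul, Nat.zero_mod]
    simp only [hev]
    refine ⟨?_, by simp⟩
    rw [filter_true_of_mem fun _ _ => trivial]
    refine le_trans (sum_le_sum fun d _ => mul_le_mul_of_nonneg_right (show (c i d : ℝ) ≤ (ev q d : ℝ) by exact_mod_cast hc d) (pow_nonneg hx0 d)) ?_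
    refine (ev_series q hx0 (by rw [hqx]; linarith) n).trans ?_
    rw [hqx]
    exact one_div_le_one_div_of_le hden (by linarith)

theorem bndC_zero (c : ℕ → ℕ → ℕ) (hc0 : ∀ l, c l 0 = 1) : ∀ k i, bndC c k i 0 = 1 := by
  intro k
  induction k with
  | zero => intro i; rfl
  | succ k ih => intro i; simp [bndC, hc0, ih]

theorem bnd_pair (a : ℕ → ℕ) (ha : a 0 = 1) (c : ℕ → ℕ → ℕ) (hc0 : ∀ l, c l 0 = 1)
    (hu0 : 0 ≤ u) (huq : (q : ℝ) * u ^ 2 = 1) (hq : 3 ≤ q)
    (hc : ∀ i, 1 ≤ i → ∀ d, c i d ≤ if i % 2 = 0 then shape q a d else ev q d)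
    (hle : ∀ i, 1 ≤ i → ∀ d, c i d ≤ cntS q (sigmaOrth i) d) :
    ∀ t, t ≤ 12 → ∀ k, Bnd c u k (14 - t) (pairB a t).1 (pairB a t).2 := by
  obtain ⟨h1, h2⟩ := u_lt hu0 huq hq
  intro t
  induction t with
  | zero =>
    intro _ k n
    have htail := part_tail sigmaOrth hu0 huq hq k 14 (by omega) n
    have hmono : ∀ w, (bndC c k 14 w : ℝ) * u ^ w ≤ (bndS q sigmaOrth k 14 w : ℝ) * u ^ w := fun w =>
      mul_le_mul_of_nonneg_right (by rw [bndS_eq]; exact_mod_cast bndC_mono k 14 w fun l hl => hle l (by omega))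
        (pow_nonneg hu0 w)
    have hpart : ∑ w ∈ range n, (bndC c k 14 w : ℝ) * u ^ w ≤ 1 / (1 - 7 * u ^ 14) :=
      (sum_le_sum fun w _ => hmono w).trans htail
    have h14 : u ^ 14 ≤ (1 / 3) ^ 7 := by
      rw [show 14 = 2 * 7 from rfl, pow_mul]; exact pow_le_pow_left₀ (sq_nonneg u) h1 7
    have h0 : 0 ≤ u ^ 14 := pow_nonneg hu0 _
    have hE : 1 / (1 - 7 * u ^ 14) ≤ 1 / (1 - 7 * (1 / 3) ^ 7) := one_div_le_one_div_of_le (by norm_num) (by linarith)
    simp only [pairB]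
    refine ⟨(sum_le_sum_of_subset_of_nonneg (filter_subset _ _) fun w _ _ => by positivity).trans (hpart.trans hE), ?_⟩
    rcases n with _ | n
    · simp only [range_zero, filter_empty, sum_empty]; positivity
    · have hz : (bndC c k 14 0 : ℝ) * u ^ 0 = 1 := by rw [bndC_zero c hc0]; simp
      have hle' : ∑ w ∈ (range (n + 1)).filter (fun w => w % 2 = 1), (bndC c k 14 w : ℝ) * u ^ w + 1 ≤
          ∑ w ∈ range (n + 1), (bndC c k 14 w : ℝ) * u ^ w := by
        rw [← hz, add_comm, ← sum_insert (f := fun w => (bndC c k 14 w : ℝ) * u ^ w) (by simp)]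
        refine sum_le_sum_of_subset_of_nonneg (fun w hw => ?_) fun w _ _ => by positivity
        simp only [mem_insert, mem_filter, mem_range] at hw ⊢
        omega
      have hfin : 1 / (1 - 7 * u ^ 14) - 1 ≤ u * (7 * (1 / 3) ^ 6 * (578 / 1000) / (1 - 7 * (1 / 3) ^ 7)) := by
        have hden : 0 < 1 - 7 * u ^ 14 := by norm_num at h14 ⊢; linarith
        rw [div_sub_one hden.ne', show 1 - (1 - 7 * u ^ 14) = u * (7 * u ^ 13) by ring, mul_div_assoc]
        refine mul_le_mul_of_nonneg_left (div_le_div₀ (by positivity) ?_ (by norm_num) (by linarith)) hu0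
        rw [show u ^ 13 = (u ^ 2) ^ 6 * u by ring, mul_assoc]
        exact mul_le_mul_of_nonneg_left (mul_le_mul (pow_le_pow_left₀ (sq_nonneg u) h1 6) h2 hu0 (by positivity))
          (by norm_num)
      linarith
  | succ t ih =>
    intro ht k
    obtain ⟨hp1, hp2⟩ := pair_nonneg a t (by omega)
    rcases k with _ | k
    · intro n
      obtain ⟨hq1, hq2⟩ := pair_nonneg a (t + 1) ht
      have hb : ∀ w, (bndC c 0 (14 - (t + 1)) w : ℝ) = if w = 0 then 1 else 0 := fun w => by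
        rw [bndC]; split_ifs <;> simp
      simp only [hb, ite_mul, one_mul, zero_mul, sum_ite_eq', mem_filter]
      constructor
      · split_ifs <;> [simpa using hq1; linarith]
      · rw [if_neg (by simp)]; positivity
    · obtain ⟨hf1, hf2⟩ := fac_nonneg a (13 - t) (by omega)
      have := Bnd.step hu0 h1 (c := c) (k := k) (i := 13 - t) (E := (pairB a t).1) (O := (pairB a t).2)
        (fe := (fac a (13 - t)).1) (fo := (fac a (13 - t)).2)
        (by rw [show 13 - t + 1 = 14 - t by omega]; exact ih (by omega) k) (by linarith) hp2 (by linarith) hf2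
        (fac_le a ha c hu0 huq hq (13 - t) (by omega) (hc _ (by omega)))
      rw [show 14 - (t + 1) = 13 - t by omega]
      simpa only [pairB] using this

theorem sigmaOrth_shape (i d : ℕ) (q : ℕ) : cntS q (sigmaOrth i) d ≤ if i % 2 = 0 then shape q aS d else ev q d := by
  unfold sigmaOrth cntS
  by_cases h : i % 2 = 0
  · simp [h, sg_le_shape]
  · simp [h]

theorem splitC_shape (i d : ℕ) (q : ℕ) (hi : 1 ≤ i) : splitC q i d ≤ if i % 2 = 0 then shape q aR d else ev q d := by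
  unfold splitC sigmaOrth
  rw [if_neg (by omega)]
  by_cases h : i % 2 = 0
  · simp [h, srl_le_shape]
  · simp [h]

theorem splitC_le (i d : ℕ) (q : ℕ) (hi : 1 ≤ i) : splitC q i d ≤ cntS q (sigmaOrth i) d := by
  unfold splitC cntS
  rw [if_neg (by omega)]
  split_ifs
  · exact srl_le_sg q d
  · exact le_rfl

/-- The two final rational bounds. -/
theorem pair_sg : (pairB aS 12).1 ≤ 19318 / 10000 ∧ (pairB aS 12).2 ≤ 27541 / 10000 := by
  constructor <;> norm_num [pairB, fac, aS, Nat.choose]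

theorem pair_srl : (pairB aR 12).1 ≤ 13459 / 10000 ∧ (pairB aR 12).2 ≤ 12265 / 10000 := by
  constructor <;> norm_num [pairB, fac, aR, Nat.choose]

theorem step_two (a : ℕ → ℕ) (ha : a 0 = 1) (c : ℕ → ℕ → ℕ) (hc0 : ∀ l, c l 0 = 1) (hu0 : 0 ≤ u)
    (huq : (q : ℝ) * u ^ 2 = 1) (hq : 3 ≤ q) (hc : ∀ i, 1 ≤ i → ∀ d, c i d ≤ if i % 2 = 0 then shape q a d else ev q d)
    (hle : ∀ i, 1 ≤ i → ∀ d, c i d ≤ cntS q (sigmaOrth i) d) (k : ℕ) :
    Bnd c u (k + 1) 1 ((pairB a 12).1 / (1 - u ^ 2)) ((pairB a 12).2 / (1 - u ^ 2)) := by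
  obtain ⟨h1, -⟩ := u_lt hu0 huq hq
  obtain ⟨hp1, hp2⟩ := pair_nonneg a 12 le_rfl
  have h := Bnd.step hu0 h1 (c := c) (k := k) (i := 1) (E := (pairB a 12).1) (O := (pairB a 12).2)
    (fe := 1 / (1 - u ^ 2)) (fo := 0) (bnd_pair a ha c hc0 hu0 huq hq hc hle 12 le_rfl k) (by linarith) hp2
    (one_div_nonneg.mpr (by linarith)) le_rfl fun n => by
      have hev : ∀ d, (1 + 1) * d % 2 = 0 := fun d => by omega
      simp only [hev, mul_zero]
      refine ⟨?_, by simp⟩
      rw [filter_true_of_mem fun _ _ => trivial]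
      simp only [pow_mul u (1 + 1)]
      refine le_trans (sum_le_sum fun d _ => mul_le_mul_of_nonneg_right (show (c 1 d : ℝ) ≤ (ev q d : ℝ) from
        Nat.cast_le.mpr ((hc 1 le_rfl d).trans_eq (by simp))) (by positivity)) ?_
      refine (ev_series q (by positivity) ?_ n).trans (le_of_eq ?_)
      · rw [show (q : ℝ) * (u ^ (1 + 1)) ^ 2 = (q * u ^ 2) * u ^ 2 by ring, huq, one_mul]; linarith
      · rw [show (q : ℝ) * (u ^ (1 + 1)) ^ 2 = (q * u ^ 2) * u ^ 2 by ring, huq, one_mul]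
  simpa only [zero_mul, zero_div, add_zero, one_div_mul_eq_div] using h

theorem total_split {c : ℕ → ℕ → ℕ} (hu0 : 0 ≤ u) (huq : (q : ℝ) * u ^ 2 = 1) {k N : ℕ} {E O Ce Co X : ℝ}
    (h : Bnd c u k 1 E O) (hCe : 0 ≤ Ce) (hCo : 0 ≤ Co) (hX : 0 ≤ X)
    (hev : ∀ d, d % 2 = 0 → (c 0 d : ℝ) * u ^ d ≤ Ce)
    (hod : ∀ d, d % 2 = 1 → (c 0 d : ℝ) * u ^ d ≤ u * (Co + if d = 1 then X else 0)) :
    (bndC c (k + 1) 0 (2 * N + 1) : ℝ) ≤ (Ce * O + Co * E + X * ((bndC c k 1 (2 * N) : ℝ) * u ^ (2 * N))) * (q : ℝ) ^ N := by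
  have hu : 0 < u := hu0.lt_of_ne fun e => by rw [← e] at huq; simp at huq
  refine le_of_mul_le_mul_right ?_ (pow_pos hu (2 * N + 1))
  rw [mul_assoc, show (q : ℝ) ^ N * u ^ (2 * N + 1) = u by rw [pow_succ, pow_mul, ← mul_assoc, ← mul_pow, huq, one_pow, one_mul]]
  obtain ⟨T, hT⟩ : ∃ T : ℕ → ℝ, T = fun v => (bndC c k 1 v : ℝ) * u ^ v := ⟨_, rfl⟩
  have hT0 : ∀ v, 0 ≤ T v := fun v => by rw [hT]; positivity
  obtain ⟨hE, hO⟩ := h (2 * N + 2)
  calc (bndC c (k + 1) 0 (2 * N + 1) : ℝ) * u ^ (2 * N + 1)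
      ≤ ∑ d ∈ range (2 * N + 2), ((if d % 2 = 0 then Ce * T (2 * N + 1 - d) else 0) +
          (if d % 2 = 1 then u * Co * T (2 * N + 1 - d) else 0) + (if d = 1 then u * X * T (2 * N) else 0)) := by
        rw [bndC, Nat.cast_sum, sum_mul]
        simp only [Nat.zero_add, Nat.div_one, Nat.one_mul]
        refine sum_le_sum fun d hd => ?_
        have hdw : d ≤ 2 * N + 1 := Nat.lt_succ_iff.mp (mem_range.mp hd)
        rw [Nat.cast_mul]
        conv_lhs => arg 2; rw [← Nat.add_sub_cancel' hdw, pow_add]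
        rw [mul_mul_mul_comm, show ((bndC c k 1 (2 * N + 1 - d) : ℝ) * u ^ (2 * N + 1 - d)) = T (2 * N + 1 - d) by rw [hT]]
        rcases Nat.mod_two_eq_zero_or_one d with hp | hp
        · rw [if_pos hp, if_neg (by omega), if_neg (by omega), add_zero, add_zero]
          exact mul_le_mul_of_nonneg_right (hev d hp) (hT0 _)
        · rw [if_neg (by omega), if_pos hp, zero_add]
          refine (mul_le_mul_of_nonneg_right (hod d hp) (hT0 _)).trans (le_of_eq ?_)
          split_ifs with h1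
          · subst h1; rw [show 2 * N + 1 - 1 = 2 * N by omega]; ring
          · ring
    _ ≤ Ce * (u * O) + u * Co * E + u * X * T (2 * N) := by
        rw [sum_add_distrib, sum_add_distrib]
        refine add_le_add (add_le_add ?_ ?_) ?_
        · rw [← sum_filter, ← mul_sum]
          refine mul_le_mul_of_nonneg_left (le_trans (le_of_eq ?_) hO) hCe
          refine sum_nbij' (fun d => 2 * N + 1 - d) (fun v => 2 * N + 1 - v) (fun d hd => ?_) (fun v hv => ?_)
            (fun d hd => ?_) (fun v hv => ?_) (fun d _ => by rw [hT])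
          all_goals simp only [coe_filter, Set.mem_setOf_eq, mem_filter, mem_range] at *
          all_goals omega
        · rw [← sum_filter, ← mul_sum]
          refine mul_le_mul_of_nonneg_left (le_trans (le_of_eq ?_) hE) (mul_nonneg hu0 hCo)
          refine sum_nbij' (fun d => 2 * N + 1 - d) (fun v => 2 * N + 1 - v) (fun d hd => ?_) (fun v hv => ?_)
            (fun d hd => ?_) (fun v hv => ?_) (fun d _ => by rw [hT])
          all_goals simp only [coe_filter, Set.mem_setOf_eq, mem_filter, mem_range] at *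
          all_goals omega
        · rw [sum_ite_eq', if_pos (mem_range.mpr (by omega))]
    _ = _ := by rw [hT]; ring

theorem simpB_odd_le (hu0 : 0 ≤ u) (huq : (q : ℝ) * u ^ 2 = 1) (hq : 3 ≤ q) (d : ℕ) (hd : d % 2 = 1) :
    (simpB q d : ℝ) * u ^ d ≤ u * (2 * (1 - u ^ 2) + if d = 1 then 2 * u ^ 2 else 0) := by
  obtain ⟨r, rfl⟩ : ∃ r, d = 2 * r + 1 := ⟨d / 2, by omega⟩
  unfold simpB
  rw [if_neg (Nat.not_even_iff_odd.mpr ⟨r, rfl⟩)]
  rcases r with _ | r
  · simp only [Nat.mul_zero, Nat.zero_add, if_true, pow_one]; push_cast; linarith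
  · rw [if_neg (by omega), if_neg (by omega), add_zero, show (2 * (r + 1) + 1) / 2 - 1 = r by omega]
    push_cast [show 1 ≤ q by omega]
    have e : (q : ℝ) ^ r * u ^ (2 * r) = 1 := by rw [pow_mul, ← mul_pow, huq, one_pow]
    rw [show 2 * (r + 1) + 1 = 2 * r + 3 by ring, pow_add]
    have : 2 * (((q : ℝ) - 1) * (q : ℝ) ^ r) * (u ^ (2 * r) * u ^ 3) =
        2 * ((q : ℝ) * u ^ 2 - u ^ 2) * u * ((q : ℝ) ^ r * u ^ (2 * r)) := by ring
    rw [this, e, huq]; exact le_of_eq (by ring)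

/-- The odd-weight bounds for all classes and for split classes. -/
theorem odd_bounds (q : ℕ) (hq : 3 ≤ q) (k N : ℕ) (hN : 1 ≤ N) :
    1000 * bndS q sigmaOrth (k + 2) 0 (2 * N + 1) ≤ 28310 * q ^ N ∧
      1000 * bndC (splitC q) (k + 2) 0 (2 * N + 1) ≤ 4985 * q ^ N := by
  obtain ⟨u, hu, huq⟩ := exists_u q hq
  obtain ⟨h1, -⟩ := u_lt hu.le huq hq
  have hden : (2 / 3 : ℝ) ≤ 1 - u ^ 2 := by linarith
  have hqN : (0 : ℝ) ≤ (q : ℝ) ^ N := by positivity
  constructor
  · have hB := step_two aS rfl (fun i d => cntS q (sigmaOrth i) d) (fun l => by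
      cases sigmaOrth l <;> simp [cntS, sg, ev, Finset.sum_range_succ]) hu.le huq hq
      (fun i _ d => sigmaOrth_shape i d q) (fun i _ d => le_rfl) k
    have h := total_split (N := N) (Ce := 28 / 9) (Co := 16 / 3) (X := 0) hu.le huq hB (by norm_num) (by norm_num) le_rfl
      (fun d _ => by simpa [sigmaOrth, cntS] using sg_factor q hq hu.le huq d) (fun d hd => by
        simp only [ite_self, add_zero]
        obtain ⟨r, rfl⟩ : ∃ r, d = 2 * r + 1 := ⟨d / 2, by omega⟩
        show (cntS q (sigmaOrth 0) (2 * r + 1) : ℝ) * _ ≤ _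
        simp only [sigmaOrth, Nat.zero_mod, decide_true, cntS, if_true]
        have e : (q : ℝ) ^ r * u ^ (2 * r) = 1 := by rw [pow_mul, ← mul_pow, huq, one_pow]
        rcases r with _ | r
        · norm_num [sg, Finset.sum_range_succ, Nat.choose]; linarith
        · rw [sg_odd]
          push_cast
          have e' : (q : ℝ) ^ r * u ^ (2 * r) = 1 := by rw [pow_mul, ← mul_pow, huq, one_pow]
          rw [show 2 * (r + 1) + 1 = 2 * r + 3 by ring, pow_add u]
          have : (4 * (q : ℝ) ^ (r + 1) + 4 * (q : ℝ) ^ r) * (u ^ (2 * r) * u ^ 3) =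
              4 * ((q : ℝ) * u ^ 2 + u ^ 2) * u * ((q : ℝ) ^ r * u ^ (2 * r)) := by ring
          rw [this, e', huq]; nlinarith)
    rw [← bndS_eq] at h
    obtain ⟨hp, hp'⟩ := pair_sg
    obtain ⟨n1, n2⟩ := pair_nonneg aS 12 le_rfl
    have d1 : (pairB aS 12).1 / (1 - u ^ 2) ≤ 19318 / 10000 * (3 / 2) := by
      rw [div_le_iff₀ (by linarith)]; nlinarith
    have d2 : (pairB aS 12).2 / (1 - u ^ 2) ≤ 27541 / 10000 * (3 / 2) := by
      rw [div_le_iff₀ (by linarith)]; nlinarith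
    have : ((1000 * bndS q sigmaOrth (k + 2) 0 (2 * N + 1) : ℕ) : ℝ) ≤ ((28310 * q ^ N : ℕ) : ℝ) := by
      push_cast
      refine le_trans (mul_le_mul_of_nonneg_left h (by norm_num)) ?_
      rw [← mul_assoc]
      exact mul_le_mul_of_nonneg_right (by rw [zero_mul, add_zero]; linarith) hqN
    exact_mod_cast this
  · have hc0 : ∀ l, splitC q l 0 = 1 := fun l => by
      unfold splitC simpB srl ev
      split_ifs <;> simp_all
    have hB := step_two aR rfl (splitC q) hc0 hu.le huq hq (fun i hi d => splitC_shape i d q hi)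
      (fun i hi d => splitC_le i d q hi) k
    have h := total_split (N := N) (Ce := 1) (Co := 2 * (1 - u ^ 2)) (X := 2 * u ^ 2) hu.le huq hB zero_le_one
      (by linarith) (by positivity) (fun d hd => by
        show (simpB q d : ℝ) * u ^ d ≤ 1
        obtain ⟨r, rfl⟩ : ∃ r, d = 2 * r := ⟨d / 2, by omega⟩
        rw [simpB, if_pos ⟨r, two_mul r⟩, show 2 * r / 2 = r by omega, Nat.cast_pow, pow_mul, ← mul_pow, huq, one_pow])
      (fun d hd => simpB_odd_le hu.le huq hq d hd)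
    obtain ⟨hp, hp'⟩ := pair_srl
    obtain ⟨n1, n2⟩ := pair_nonneg aR 12 le_rfl
    have hterm : (bndC (splitC q) (k + 1) 1 (2 * N) : ℝ) * u ^ (2 * N) ≤ (pairB aR 12).1 - 2 / 3 := by
      have hBt := (bnd_pair aR rfl (splitC q) hc0 hu.le huq hq (fun i hi d => splitC_shape i d q hi)
        (fun i hi d => splitC_le i d q hi) 12 le_rfl k (2 * N + 1)).1
      obtain ⟨T, hT⟩ : ∃ T : ℕ → ℝ, T = fun v => (bndC (splitC q) k 2 v : ℝ) * u ^ v := ⟨_, rfl⟩
      have hT0 : ∀ v, 0 ≤ T v := fun v => by rw [hT]; positivity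
      have hTz : T 0 = 1 := by rw [hT]; simp [bndC_zero _ hc0]
      have hterms : (bndC (splitC q) (k + 1) 1 (2 * N) : ℝ) * u ^ (2 * N) ≤
          ∑ d ∈ (range (N + 1)).filter Even, (if d = N then 1 / 3 else 1) * T (2 * N - 2 * d) := by
        rw [bndC, Nat.cast_sum, sum_mul, show 2 * N / (1 + 1) + 1 = N + 1 by omega]
        simp only [sum_filter]
        refine sum_le_sum fun d hd => ?_
        have hdN : d ≤ N := Nat.lt_succ_iff.mp (mem_range.mp hd)
        have hs : splitC q 1 d = ev q d := by simp [splitC, sigmaOrth]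
        rw [hs, Nat.cast_mul]
        conv_lhs => arg 2; rw [show 2 * N = 2 * d + (2 * N - 2 * d) by omega, pow_add]
        rw [mul_mul_mul_comm, show (1 + 1) * d = 2 * d from rfl,
          show ((bndC (splitC q) k (1 + 1) (2 * N - 2 * d) : ℝ) * u ^ (2 * N - 2 * d)) = T (2 * N - 2 * d) by rw [hT]]
        by_cases he : Even d
        · rw [if_pos he]
          refine mul_le_mul_of_nonneg_right ?_ (hT0 _)
          obtain ⟨r, rfl⟩ := he
          have e : (ev q (r + r) : ℝ) * u ^ (2 * (r + r)) = (u ^ 2) ^ r := by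
            rw [ev, if_pos ⟨r, rfl⟩, show (r + r) / 2 = r by omega, Nat.cast_pow, show 2 * (r + r) = 2 * r + 2 * r by ring,
              pow_add, ← mul_assoc, pow_mul, ← mul_pow, huq, one_pow, one_mul]
          rw [e]
          split_ifs with hrN
          · exact (pow_le_pow_of_le_one (sq_nonneg u) (by linarith) (show 1 ≤ r by omega)).trans (by rw [pow_one]; exact h1)
          · exact pow_le_one₀ (sq_nonneg u) (by linarith)
        · rw [if_neg he, ev, if_neg he]; simp
      refine hterms.trans ?_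
      have hsum : ∑ d ∈ (range (N + 1)).filter Even, (if d = N then 1 / 3 else 1) * T (2 * N - 2 * d) + 2 / 3 * T 0 ≤
          ∑ v ∈ (range (2 * N + 1)).filter (fun v => v % 2 = 0), T v := by
        refine le_trans (b := ∑ d ∈ range (N + 1), ((if d = N then 1 / 3 else 1) * T (2 * N - 2 * d) + if d = N then 2 / 3 * T 0 else 0)) ?_ ?_
        · rw [sum_add_distrib, sum_ite_eq', if_pos (mem_range.mpr (by omega))]
          exact add_le_add (sum_le_sum_of_subset_of_nonneg (filter_subset _ _) fun d _ _ =>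
            mul_nonneg (by split_ifs <;> norm_num) (hT0 _)) le_rfl
        · rw [sum_congr rfl fun d hd => show (if d = N then 1 / 3 else 1) * T (2 * N - 2 * d) + (if d = N then 2 / 3 * T 0 else 0) =
            T (2 * N - 2 * d) by
              split_ifs with hdN
              · rw [hdN, Nat.sub_self]; ring
              · ring, ← sum_image (g := fun d => 2 * N - 2 * d)]
          · refine sum_le_sum_of_subset_of_nonneg (fun v hv => ?_) fun v _ _ => hT0 v
            obtain ⟨d, hd, rfl⟩ := mem_image.mp hv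
            simp only [mem_filter, mem_range] at hd ⊢
            omega
          · intro a ha b hb e
            simp only [coe_range, Set.mem_Iio] at ha hb
            simp only at e; omega
      rw [hTz] at hsum
      rw [hT] at hsum ⊢
      simp only [show 14 - 12 = 2 from rfl] at hBt
      linarith
    have e1 : 2 * (1 - u ^ 2) * ((pairB aR 12).1 / (1 - u ^ 2)) = 2 * (pairB aR 12).1 := by
      field_simp [show (1 - u ^ 2) ≠ 0 by linarith]
    have d2 : (pairB aR 12).2 / (1 - u ^ 2) ≤ 12265 / 10000 * (3 / 2) := by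
      rw [div_le_iff₀ (by linarith)]; nlinarith
    have hX : 2 * u ^ 2 * ((bndC (splitC q) (k + 1) 1 (2 * N) : ℝ) * u ^ (2 * N)) ≤ 2 / 3 * (13459 / 10000 - 2 / 3) := by
      refine mul_le_mul (by linarith) (by linarith) (by positivity) (by norm_num)
    have : ((1000 * bndC (splitC q) (k + 2) 0 (2 * N + 1) : ℕ) : ℝ) ≤ ((4985 * q ^ N : ℕ) : ℝ) := by
      push_cast
      refine le_trans (mul_le_mul_of_nonneg_left h (by norm_num)) ?_
      rw [← mul_assoc]
      exact mul_le_mul_of_nonneg_right (by rw [one_mul, e1]; linarith) hqN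
    exact_mod_cast this

end CfsgLib.OmegaClasses
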