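import Cfsg.Agent.OmegaClasses.SplitKey
import Cfsg.Agent.OmegaClasses.Series
import Cfsg.Agent.SignedClasses.IndexTwo
import Cfsg.Agent.SignedClasses.OrthTransfer

/-!
Class number bounds for `Ω` in odd dimension, odd characteristic.
-/

set_option autoImplicit false

namespace CfsgLib.OmegaClasses

open Polynomial Matrix QuadraticMap CfsgLib.Forms CfsgLib.SignedClasses
open scoped Classical

theorem bndS_none_odd (q : ℕ) : ∀ k i w, Odd w → bndS q (fun _ => false) k i w = 0 := by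
  intro k
  induction k with
  | zero => intro i w hw; simp only [bndS]; rw [if_neg hw.pos.ne']
  | succ k ih =>
    intro i w hw
    refine Finset.sum_eq_zero fun d hd => ?_
    rcases Nat.even_or_odd d with ⟨r, rfl⟩ | hd'
    · have hle : (i + 1) * (r + r) ≤ w := by
        have := (Nat.le_div_iff_mul_le (Nat.succ_pos i)).mp (Nat.lt_succ_iff.mp (Finset.mem_range.mp hd))
        rwa [mul_comm]
      rw [ih _ _ (Nat.Odd.sub_even hle hw ⟨(i + 1) * r, by ring⟩), mul_zero]
    · simp [cntS, ev, Nat.not_even_iff_odd.mpr hd']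

theorem card_classes_congr {A B : Type*} [Group A] [Group B] [Finite A] [Finite B] (e : A ≃* B) :
    Nat.card (ConjClasses A) = Nat.card (ConjClasses B) :=
  le_antisymm (Nat.card_le_card_of_surjective (ConjClasses.map e.symm.toMonoidHom)
    (ConjClasses.map_surjective e.symm.surjective))
    (Nat.card_le_card_of_surjective (ConjClasses.map e.toMonoidHom) (ConjClasses.map_surjective e.surjective))

/-- Isomorphic groups have isomorphic commutator subgroups. -/
theorem exists_commutator_equiv {A B : Type*} [Group A] [Group B] (e : A ≃* B) :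
    Nonempty (↥(commutator A) ≃* ↥(commutator B)) := by
  refine ⟨(e.subgroupMap _).trans (MulEquiv.subgroupCongr ?_)⟩
  rw [commutator_def, commutator_def, Subgroup.map_commutator, Subgroup.map_top_of_surjective _ e.surjective]

/-- A form on `Fin N` whose isometries are those of a given symmetric matrix. -/
theorem exists_quad {F : Type*} [Field F] {N : ℕ} (h2 : (2 : F) ≠ 0) (G : Matrix (Fin N) (Fin N) F) (hG : IsUnit G.det)
    (hs : Gᵀ = G) :
    ∃ Q : QuadraticForm F (Fin N → F), (polarBilin Q).Nondegenerate ∧ (∀ u v, polar Q u v = u ⬝ᵥ (G *ᵥ v)) ∧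
      Cfsg.isometryGroup F ⇑Q = isoGroup G := by
  refine ⟨LinearMap.BilinMap.toQuadraticMap (Matrix.toBilin' ((2 : F)⁻¹ • G)), ?_⟩
  obtain ⟨Q, hQdef⟩ : ∃ Q : QuadraticForm F (Fin N → F),
      Q = LinearMap.BilinMap.toQuadraticMap (Matrix.toBilin' ((2 : F)⁻¹ • G)) := ⟨_, rfl⟩
  rw [← hQdef]
  have hp : ∀ u v, polar Q u v = u ⬝ᵥ (G *ᵥ v) := fun u v => by
    have e : v ⬝ᵥ (G *ᵥ u) = u ⬝ᵥ (G *ᵥ v) := by
      rw [Matrix.dotProduct_mulVec, ← Matrix.mulVec_transpose, hs, dotProduct_comm]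
    rw [hQdef, LinearMap.BilinMap.polar_toQuadraticMap, Matrix.toBilin'_apply', Matrix.toBilin'_apply',
      Matrix.smul_mulVec, Matrix.smul_mulVec, dotProduct_smul, dotProduct_smul, e, smul_eq_mul]
    field_simp
    ring
  refine ⟨nondegenerate_iff.2 fun x hx => ?_, hp, Subgroup.ext fun a => ?_⟩
  · by_contra hne
    refine hG.ne_zero (Matrix.exists_mulVec_eq_zero_iff.mp ⟨x, hne, funext fun i => ?_⟩)
    have h := hx (Pi.single i 1)
    rw [polar_comm, hp, single_dotProduct, one_mul] at h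
    exact h
  · rw [mem_isometryGroup, mem_isoGroup]
    have key : ∀ u v, u ⬝ᵥ ((a.1.transpose * G * a.1) *ᵥ v) = polar Q (a.1 *ᵥ u) (a.1 *ᵥ v) := fun u v => by
      rw [hp, ← Matrix.mulVec_mulVec, ← Matrix.mulVec_mulVec, Matrix.dotProduct_mulVec u, Matrix.vecMul_transpose]
    refine ⟨fun h => Matrix.ext fun i l => ?_, fun h v => ?_⟩
    · have h3 := key (Pi.single i 1) (Pi.single l 1)
      rw [show polar (⇑Q) (a.1 *ᵥ Pi.single i 1) (a.1 *ᵥ Pi.single l 1) = polar Q (Pi.single i 1) (Pi.single l 1) by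
        simp only [polar, ← Matrix.mulVec_add, h], hp] at h3
      simpa using h3
    · have h3 := key v v
      rw [h, ← hp, polar_self, polar_self, nsmul_eq_mul, nsmul_eq_mul] at h3
      exact (mul_left_cancel₀ (by exact_mod_cast h2) h3).symm

variable {F : Type*} [Field F]

omit [Field F] in
theorem plift_eval_zero {F : Type*} [Field F] (n : ℕ) (P : F[X]) : (plift n P).eval 0 = P.coeff n := by
  simp only [plift, CfsgLib.SympSemiCount.lift, eval_finsetSum, eval_mul, eval_C, eval_pow, eval_add, eval_X, eval_one]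
  rw [Finset.sum_eq_single (⟨n, Nat.lt_succ_self n⟩ : Fin (n + 1))]
  · simp
  · intro i _ hi
    have : (i : ℕ) < n := lt_of_le_of_ne (Nat.lt_succ_iff.mp i.2) fun h => hi (Fin.ext h)
    rw [zero_pow (by omega), zero_mul, mul_zero]
  · exact fun h => absurd (Finset.mem_univ _) h

/-- Every palindromic polynomial times `X - 1` is realised with determinant one. -/
theorem exists_real (h2 : (2 : F) ≠ 0) {n N : ℕ} (hN : N = n + n + 1) (G : Matrix (Fin N) (Fin N) F) (hG : IsUnit G.det)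
    (hs : Gᵀ = G) [Fintype F] (P : F[X]) (hPm : P.Monic) (hPd : P.natDegree = n) :
    ∃ a : GL (Fin N) F, a ∈ isoGroup G ∧ a.1.det = 1 ∧ a.1.charpoly = plift n P * (X - C 1) := by
  obtain ⟨g, H, ⟨hu, hs', hg, hf⟩, -, -⟩ := exists_model n P hPm hPd
  obtain ⟨t, ht⟩ : ∃ t, t = H.det⁻¹ * G.det := ⟨_, rfl⟩
  have ht0 : t ≠ 0 := by rw [ht]; exact mul_ne_zero (inv_ne_zero hu.ne_zero) hG.ne_zero
  have hd : (Matrix.fromBlocks H 0 0 (Matrix.diagonal fun _ : Fin 1 => t)).det = G.det := by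
    rw [Matrix.det_fromBlocks_zero₁₂, Matrix.det_diagonal, Fin.prod_univ_one, ht, mul_inv_cancel_left₀ hu.ne_zero]
  have hm : IsModel (Matrix.fromBlocks g 0 0 (1 : Matrix (Fin 1) (Fin 1) F))
      (Matrix.fromBlocks H 0 0 (Matrix.diagonal fun _ : Fin 1 => t)) (plift n P * (X - C 1)) := by
    refine ⟨by rw [hd]; exact hG, ?_, ?_, ?_⟩
    · rw [Matrix.fromBlocks_transpose, hs', Matrix.transpose_zero, Matrix.transpose_zero, Matrix.diagonal_transpose]
    · rw [Matrix.fromBlocks_transpose, Matrix.fromBlocks_multiply, Matrix.fromBlocks_multiply]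
      simp [hg]
    · rw [Matrix.charpoly_fromBlocks_zero₁₂, hf, ← Matrix.diagonal_one, Matrix.charpoly_diagonal, Fin.prod_univ_one]
  obtain ⟨hu', hs'', hg', hf'⟩ := model_reindex (finSumFinEquiv.trans (finCongr hN.symm)) hm
  obtain ⟨H', hH'⟩ : ∃ H', H' = Matrix.reindex (finSumFinEquiv.trans (finCongr hN.symm))
    (finSumFinEquiv.trans (finCongr hN.symm)) (Matrix.fromBlocks H 0 0 (Matrix.diagonal fun _ : Fin 1 => t)) := ⟨_, rfl⟩
  obtain ⟨g', hg'def⟩ : ∃ g', g' = Matrix.reindex (finSumFinEquiv.trans (finCongr hN.symm))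
    (finSumFinEquiv.trans (finCongr hN.symm)) (Matrix.fromBlocks g 0 0 (1 : Matrix (Fin 1) (Fin 1) F)) := ⟨_, rfl⟩
  rw [← hH', ← hg'def] at hg'
  rw [← hH'] at hu' hs''
  rw [← hg'def] at hf'
  obtain ⟨R, hR, hRH⟩ := congr_symm h2 hs'' hu' hs hG (by rw [hH', Matrix.det_reindex_self, hd]; exact ⟨G.det, rfl⟩)
  obtain ⟨u, hu1⟩ : ∃ u : GL (Fin N) F, u.1 = R := ⟨((Matrix.isUnit_iff_isUnit_det R).mpr hR).unit, rfl⟩
  obtain ⟨a, ha⟩ : ∃ a : GL (Fin N) F, a.1 = g' := ⟨((Matrix.isUnit_iff_isUnit_det g').mpr (isUnit_iso hu' hg')).unit, rfl⟩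
  have hcp : (u⁻¹ * a * u).1.charpoly = plift n P * (X - C 1) := by
    rw [Units.val_mul, Units.val_mul, Matrix.coe_units_inv, Matrix.charpoly_units_conj', ha, hf']
  refine ⟨u⁻¹ * a * u, ?_, ?_, hcp⟩
  · rw [← ha] at hg'
    rw [mem_isoGroup, ← hRH, ← hu1, Units.val_mul, Units.val_mul]
    calc (u⁻¹.1 * a.1 * u.1)ᵀ * (u.1ᵀ * H' * u.1) * (u⁻¹.1 * a.1 * u.1)
        = u.1ᵀ * a.1ᵀ * ((u.1 * u⁻¹.1)ᵀ * H' * (u.1 * u⁻¹.1)) * a.1 * u.1 := by
          simp only [Matrix.transpose_mul, Matrix.mul_assoc]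
      _ = u.1ᵀ * (a.1ᵀ * H' * a.1) * u.1 := by
          rw [Units.mul_inv, Matrix.transpose_one, Matrix.one_mul, Matrix.mul_one]; simp only [Matrix.mul_assoc]
      _ = _ := by rw [hg']
  · rw [Matrix.det_eq_sign_charpoly_coeff, hcp, mul_coeff_zero, coeff_sub, coeff_X_zero, coeff_C_zero,
      coeff_zero_eq_eval_zero, plift_eval_zero, ← hPd, hPm.coeff_natDegree, Fintype.card_fin, hN,
      Odd.neg_one_pow ⟨n, by ring⟩]
    ring

/-- Bounds on the class number of `Ω` in dimension `2n+1`. -/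
theorem omega_bounds [Fintype F] (h2 : (2 : F) ≠ 0) (hq : 3 ≤ Fintype.card F) {n : ℕ} (hn : 2 ≤ n) {N : ℕ}
    (hN : N = 2 * n + 1) (G : Matrix (Fin N) (Fin N) F) (hG : IsUnit G.det) (hs : Gᵀ = G)
    (Q : QuadraticForm F (Fin N → F)) (hQ : (polarBilin Q).Nondegenerate)
    (hQG : ∀ u v, polar Q u v = u ⬝ᵥ (G *ᵥ v)) (hO : Cfsg.isometryGroup F ⇑Q = isoGroup G) :
    Fintype.card F ^ n ≤ 2 * Nat.card (ConjClasses ↥(Cfsg.Omega F ⇑Q)) ∧
      10 * Nat.card (ConjClasses ↥(Cfsg.Omega F ⇑Q)) ≤ 73 * Fintype.card F ^ n := by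
  have hodd : Odd N := ⟨n, hN⟩
  have hcond : Nat.card F ≠ 2 ∨ Fintype.card (Fin N) ≠ 4 := Or.inr (by rw [Fintype.card_fin]; omega)
  let dt : ↥(Cfsg.isometryGroup F ⇑Q) →* Fˣ := Matrix.GeneralLinearGroup.det.comp (Cfsg.isometryGroup F ⇑Q).subtype
  let SO : Subgroup ↥(Cfsg.isometryGroup F ⇑Q) := dt.ker
  have hSO : ∀ x : ↥(Cfsg.isometryGroup F ⇑Q), x ∈ SO ↔ x.1.1.det = 1 := fun x => by
    rw [MonoidHom.mem_ker, Units.ext_iff]; rfl
  have hle : Cfsg.Omega F ⇑Q ≤ SO := Abelianization.commutator_subset_ker dt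
  let H : Subgroup SO := (Cfsg.Omega F ⇑Q).subgroupOf SO
  -- index two
  obtain ⟨ν, hν⟩ := FiniteField.exists_nonsquare (F := F) fun hc => h2 (by
    exact_mod_cast (ringChar.spec F 2).mpr (dvd_of_eq hc))
  have hν0 : ν ≠ 0 := fun e => hν (e ▸ IsSquare.zero)
  have hval : ∀ c : F, c ≠ 0 → ∃ u, Q u = c := fun c hc => by
    obtain ⟨x, hx⟩ := exists_value_of_two h2 hs hG (show (⟨0, by omega⟩ : Fin N) ≠ ⟨1, by omega⟩ from
      fun h => zero_ne_one (congrArg Fin.val h)) (mul_ne_zero h2 hc)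
    refine ⟨x, mul_left_cancel₀ h2 ?_⟩
    rw [← hx, ← hQG, polar_self, nsmul_eq_mul, Nat.cast_ofNat]
  obtain ⟨v₁, hv₁⟩ := hval 1 one_ne_zero
  obtain ⟨v₂, hv₂⟩ := hval ν hν0
  let s : List {u : Fin N → F // Q u ≠ 0} :=
    [⟨v₁, by rw [hv₁]; exact one_ne_zero⟩, ⟨v₂, by rw [hv₂]; exact hν0⟩]
  have hsv : valueProd Q s = ν := by simp [s, valueProd, hv₁, hv₂]
  have hidx : H.index = 2 := by
    refine Subgroup.index_eq_two_iff.mpr ⟨⟨listGL Q s, (hSO _).mpr ?_⟩, fun b => ?_⟩
    · rw [det_of_list (isoEquiv_listGL s)]; simp [s]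
    obtain ⟨l, hl⟩ := exists_list hQ hcond b.1
    have heven : Even l.length := by
      have hb := (hSO _).mp b.2
      rw [det_of_list hl] at hb
      by_contra hc
      rw [(Nat.not_even_iff_odd.mp hc).neg_one_pow] at hb
      exact h2 (by linear_combination -hb)
    have hbs : isoEquiv Q (b.1 * listGL Q s) = ⟨reflProd Q (l ++ s), reflProd_mem_isom _⟩ := by
      rw [map_mul, hl, isoEquiv_listGL]
      exact Subtype.ext (reflProd_append l s).symm
    show Xor' (b.1 * listGL Q s ∈ Cfsg.Omega F ⇑Q) (b.1 ∈ Cfsg.Omega F ⇑Q)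
    rw [mem_Omega_of_list hQ hcond hbs, mem_Omega_of_list hQ hcond hl, valueProd, List.map_append, List.prod_append]
    change Xor' (_ ∧ IsSquare (valueProd Q l * valueProd Q s)) (_ ∧ IsSquare (valueProd Q l))
    rw [hsv, mul_comm _ ν, isSquare_mul_nonsquare (valueProd_ne_zero l) hν, List.length_append,
      and_iff_right (heven.add (show Even s.length from even_two)), and_iff_right heven]
    by_cases h : IsSquare (valueProd Q l) <;> simp [Xor', h]
  obtain ⟨hup, hlow⟩ := card_classes_index_two H hidx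
  have hkH : Nat.card (ConjClasses H) = Nat.card (ConjClasses ↥(Cfsg.Omega F ⇑Q)) :=
    card_classes_congr (Subgroup.subgroupOfEquivOfLe hle)
  -- the full group is `SO × {±1}`
  let E : ↥(Cfsg.isometryGroup F ⇑Q) ≃* isoGroup G := MulEquiv.subgroupCongr hO
  have hz : (-1 : GL (Fin N) F) ∈ Cfsg.isometryGroup F ⇑Q := by
    rw [hO, mem_isoGroup]; simp
  let z : ↥(Cfsg.isometryGroup F ⇑Q) := ⟨-1, hz⟩
  have hzc : ∀ x : ↥(Cfsg.isometryGroup F ⇑Q), z * x = x * z := fun x => Subtype.ext (by show -1 * x.1 = x.1 * -1; simp)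
  have hzd : ∀ x : ↥(Cfsg.isometryGroup F ⇑Q), (z * x).1.1.det = -x.1.1.det := fun x => by
    show ((-1 : Matrix (Fin N) (Fin N) F) * x.1.1).det = _
    rw [Matrix.neg_mul, Matrix.one_mul, Matrix.det_neg, Fintype.card_fin, hodd.neg_one_pow, neg_one_mul]
  have hdet : ∀ x : ↥(Cfsg.isometryGroup F ⇑Q), x.1.1.det = 1 ∨ x.1.1.det = -1 := fun x => by
    have h : x.1.1ᵀ * G * x.1.1 = G := mem_isoGroup.mp (E x).2
    have h' := congrArg Matrix.det h
    rw [Matrix.det_mul, Matrix.det_mul, Matrix.det_transpose] at h'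
    exact mul_self_eq_one_iff.mp (mul_left_cancel₀ hG.ne_zero (by linear_combination h'))
  have h1m : (1 : F) ≠ -1 := fun h => h2 (by linear_combination h)
  let sg' : Bool → ↥(Cfsg.isometryGroup F ⇑Q) → ↥(Cfsg.isometryGroup F ⇑Q) := fun b x => if b then x else z * x
  let φ : ConjClasses SO × Bool → ConjClasses (isoGroup G) := fun p =>
    ConjClasses.mk (E (sg' p.2 (Quotient.out p.1 : SO).1))
  have hφ : Function.Injective φ := by
    rintro ⟨A, a⟩ ⟨B, b⟩ h
    obtain ⟨c, hc⟩ := isConj_iff.mp (ConjClasses.mk_eq_mk_iff_isConj.mp h)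
    obtain ⟨c, rfl⟩ := E.surjective c
    rw [← map_mul, ← map_inv, ← map_mul] at hc
    have hc' : c * sg' a (Quotient.out A : SO).1 * c⁻¹ = sg' b (Quotient.out B : SO).1 := E.injective hc
    obtain ⟨x, hx⟩ : ∃ x, x = (Quotient.out A : SO) := ⟨_, rfl⟩
    obtain ⟨y, hy⟩ : ∃ y, y = (Quotient.out B : SO) := ⟨_, rfl⟩
    rw [← hx, ← hy] at hc'
    have hab : a = b := by
      have h' : (sg' a x.1).1.1.det = (sg' b y.1).1.1.det := by
        rw [← hc']
        exact (Matrix.det_units_conj c.1 _).symm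
      rcases a with _ | _ <;> rcases b with _ | _ <;> try rfl
      all_goals simp only [sg', if_true, if_false, hzd, (hSO _).mp x.2, (hSO _).mp y.2, Bool.false_eq_true] at h'
      · exact absurd h'.symm h1m
      · exact absurd h' h1m
    subst hab
    have hcxy : c * x.1 * c⁻¹ = y.1 := by
      cases a
      · refine mul_left_cancel (a := z) ?_
        calc z * (c * x.1 * c⁻¹) = c * (z * x.1) * c⁻¹ := by rw [← mul_assoc, ← mul_assoc, hzc c, mul_assoc c]
          _ = _ := by simpa [sg'] using hc'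
      · simpa [sg'] using hc'
    refine Prod.ext ?_ rfl
    show A = B
    rw [← Quotient.out_eq A, ← Quotient.out_eq B, ← hx, ← hy]
    refine Quotient.sound (show IsConj x y from isConj_iff.mpr ?_)
    rcases hdet c with hd | hd
    · exact ⟨⟨c, (hSO _).mpr hd⟩, Subtype.ext hcxy⟩
    · refine ⟨⟨z * c, (hSO _).mpr (by rw [hzd, hd, neg_neg])⟩, Subtype.ext ?_⟩
      show z * c * x.1 * (z * c)⁻¹ = y.1
      rw [← hcxy, hzc c, mul_assoc c z, hzc x.1]
      group
  have hkO : 2 * Nat.card (ConjClasses SO) ≤ Nat.card (ConjClasses (isoGroup G)) := by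
    have := Nat.card_le_card_of_injective φ hφ
    rwa [Nat.card_prod, Nat.card_eq_fintype_card (α := Bool), Fintype.card_bool, mul_comm] at this
  have hbad : 2 * Nat.card {C : ConjClasses SO // ∃ g : SO, ConjClasses.mk g = C ∧ g ∈ H ∧
      ∀ x : SO, x * g = g * x → x ∈ H} ≤
      Nat.card {C : ConjClasses (isoGroup G) // IsSplit Q (Quotient.out C : isoGroup G).1.1} := by
    have hmem : ∀ (p : {C : ConjClasses SO // ∃ g : SO, ConjClasses.mk g = C ∧ g ∈ H ∧
        ∀ x : SO, x * g = g * x → x ∈ H} × Bool), IsSplit Q (Quotient.out (φ (p.1.1, p.2)) : isoGroup G).1.1 := by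
      rintro ⟨⟨C, g, hgC, -, hgc⟩, b⟩
      have hgs : IsSplit Q g.1.1.1 := fun R hR hRd =>
        hgc ⟨R, (hSO _).mpr hRd⟩ (Subtype.ext (Subtype.ext (Units.ext hR)))
      have hbs : IsSplit Q (sg' b g.1).1.1 := by
        cases b
        · intro R hR hRd
          refine hgs R ?_ hRd
          have hR' : R.1.1 * (-1 * g.1.1.1) = -1 * g.1.1.1 * R.1.1 := hR
          simpa using hR'
        · exact hgs
      obtain ⟨w, hw⟩ : ∃ w, w = (Quotient.out (φ (C, b)) : isoGroup G) := ⟨_, rfl⟩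
      rw [← hw]
      have h1 : IsConj (sg' b g.1) (E.symm w) := by
        have e1 : IsConj (E (sg' b (Quotient.out C : SO).1)) w := ConjClasses.mk_eq_mk_iff_isConj.mp (by
          rw [hw]; exact (Quotient.out_eq (φ (C, b))).symm)
        have e2 : IsConj g.1 (Quotient.out C : SO).1 :=
          SO.subtype.map_isConj (ConjClasses.mk_eq_mk_iff_isConj.mp (hgC.trans (Quotient.out_eq C).symm))
        have e3 : IsConj (sg' b g.1) (sg' b (Quotient.out C : SO).1) := by
          cases b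
          · obtain ⟨c, hc⟩ := isConj_iff.mp e2
            refine isConj_iff.mpr ⟨c, ?_⟩
            show c * (z * g.1) * c⁻¹ = z * _
            rw [← hc, ← mul_assoc c, ← hzc c, mul_assoc z, mul_assoc z]
          · exact e2
        refine e3.trans ?_
        have := E.symm.toMonoidHom.map_isConj e1
        simpa using this
      obtain ⟨u, hu⟩ := isConj_iff.mp h1
      have h3 := hbs.conj u
      have h4 : w.1.1 = u.1.1 * (sg' b g.1).1.1 * u⁻¹.1.1 := congrArg (fun r : ↥(Cfsg.isometryGroup F ⇑Q) => r.1.1) hu.symm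
      rwa [h4]
    have := Nat.card_le_card_of_injective (fun p => (⟨φ (p.1.1, p.2), hmem p⟩ :
      {C : ConjClasses (isoGroup G) // IsSplit Q (Quotient.out C : isoGroup G).1.1})) fun p r h => by
        obtain ⟨h1, h2⟩ := Prod.mk.inj (hφ (congrArg Subtype.val h))
        exact Prod.ext (Subtype.ext h1) h2
    rwa [Nat.card_prod, Nat.card_eq_fintype_card (α := Bool), Fintype.card_bool, mul_comm] at this
  have hP := (card_split_le h2 hodd Q hQ G hQG hG hs).trans_eq rfl
  have hσ : ∀ j : ℕ, (-1 : F) ^ j = 1 ↔ sigmaOrth j = true := fun j => by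
    rcases Nat.even_or_odd j with h | h
    · rw [h.neg_one_pow, sigmaOrth, Nat.even_iff.mp h]; simp
    · rw [h.neg_one_pow, sigmaOrth, Nat.odd_iff.mp h]
      exact iff_of_false (fun e => h2 (by linear_combination -e)) (by simp)
  have hO2 := two_card_classes_le h2 G hG hs sigmaOrth hσ
  rw [bndS_none_odd _ N 0 N hodd, Nat.add_zero] at hO2
  obtain ⟨hS1, hS2⟩ := odd_bounds (Fintype.card F) hq (2 * n - 1) n (by omega)
  rw [show 2 * n - 1 + 2 = 2 * n + 1 by omega, ← hN] at hS1 hS2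
  refine ⟨?_, by omega⟩
  -- lower bound
  rw [← hkH]
  refine le_trans ?_ hlow
  have hlo : ∀ c : Fin n → F, (∑ i : Fin n, C (c i) * X ^ (i : ℕ)).degree < (n : WithBot ℕ) := fun c =>
    lt_of_le_of_lt (degree_sum_le _ _) ((Finset.sup_lt_iff (WithBot.bot_lt_coe n)).mpr fun i _ =>
      lt_of_le_of_lt (degree_C_mul_X_pow_le _ _) (WithBot.coe_lt_coe.mpr i.2))
  obtain ⟨Pc, hPc⟩ : ∃ Pc : (Fin n → F) → F[X], Pc = fun c => X ^ n + ∑ i : Fin n, C (c i) * X ^ (i : ℕ) := ⟨_, rfl⟩
  have hco : ∀ c (i : Fin n), (Pc c).coeff i = c i := fun c i => by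
    rw [hPc]
    dsimp only
    rw [coeff_add, coeff_X_pow, if_neg i.2.ne, zero_add, finsetSum_coeff]
    simp [coeff_C_mul, coeff_X_pow, Fin.val_inj]
  have hreal : ∀ c : Fin n → F, ∃ a : SO, a.1.1.1.charpoly = plift n (Pc c) * (X - C 1) := fun c => by
    obtain ⟨a, hamem, had, hac⟩ := exists_real h2 (show N = n + n + 1 by omega) G hG hs (Pc c)
      (by rw [hPc]; exact monic_X_pow_add (hlo c)) (by
        refine natDegree_eq_of_degree_eq_some ?_
        rw [hPc]
        dsimp only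
        rw [degree_add_eq_left_of_degree_lt] <;> rw [degree_X_pow]
        exact hlo c)
    exact ⟨⟨⟨a, by rw [hO]; exact hamem⟩, (hSO _).mpr had⟩, hac⟩
  choose a ha using hreal
  have hinj : Function.Injective fun c => ConjClasses.mk (a c) := fun c d h => by
    have hcd : IsConj (a c).1.1 (a d).1.1 := (Cfsg.isometryGroup F ⇑Q).subtype.map_isConj
      (SO.subtype.map_isConj (ConjClasses.mk_eq_mk_iff_isConj.mp h))
    have h' : (a c).1.1.1.charpoly = (a d).1.1.1.charpoly := by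
      obtain ⟨u, hu⟩ := isConj_iff.mp hcd
      rw [← hu, Units.val_mul, Units.val_mul, Matrix.coe_units_inv, Matrix.charpoly_units_conj]
    have h1 : plift n (Pc c) * (X - C 1) = plift n (Pc d) * (X - C 1) := by
      rw [← ha, ← ha]; exact h'
    have h2 := CfsgLib.SympSemiCount.lift_injective n (mul_right_cancel₀ (X_sub_C_ne_zero 1) h1)
    funext i
    have h3 := congrFun h2 i.castSucc
    simp only [Fin.val_castSucc] at h3
    rwa [hco, hco] at h3
  refine le_of_eq_of_le ?_ (Nat.card_le_card_of_injective _ hinj)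
  rw [Nat.card_fun, Nat.card_eq_fintype_card (α := F), Nat.card_eq_fintype_card (α := Fin n), Fintype.card_fin]

end CfsgLib.OmegaClasses
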