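import Cfsg.Agent.SignedClasses.Key
import Cfsg.Agent.SignedClasses.Congr
import Cfsg.Agent.Forms.OmegaMatrix
import Cfsg.Agent.Forms.Matrix

/-!
A product of orthogonal reflections commuting with an isometry, from an anisotropic layer vector.
-/

set_option autoImplicit false

namespace CfsgLib.OmegaClasses

open Polynomial Matrix CfsgLib.SignedClasses
open scoped Classical

variable {F : Type*} [Field F] [Fintype F] {N : ℕ} {g G : Matrix (Fin N) (Fin N) F}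
  {m : ℕ} {p : Fin m → F[X]} {e : Fin m → ℕ} {b : Fin m → Fin N → F}

/-- The determinant of the alternating anti-diagonal matrix. -/
noncomputable def antiDet (F : Type*) [Field F] (j : ℕ) : F :=
  (Matrix.of fun a c : Fin j => if (a : ℕ) + c = j - 1 then (-1 : F) ^ (a : ℕ) else 0).det

omit [Fintype F] in
theorem det_anti {j : ℕ} {val : F} (M : Matrix (Fin j) (Fin j) F) (h0 : ∀ a c : Fin j, j ≤ (a : ℕ) + c → M a c = 0)
    (h1 : ∀ a c : Fin j, (a : ℕ) + c = j - 1 → M a c = (-1) ^ (a : ℕ) * val) : M.det = antiDet F j * val ^ j := by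
  have key : ∀ (A : Matrix (Fin j) (Fin j) F) (v : F), (∀ a c : Fin j, j ≤ (a : ℕ) + c → A a c = 0) →
      (∀ a c : Fin j, (a : ℕ) + c = j - 1 → A a c = (-1) ^ (a : ℕ) * v) →
      (Equiv.Perm.sign (Fin.revPerm : Equiv.Perm (Fin j)) : F) * A.det = ∏ a : Fin j, (-1 : F) ^ (a : ℕ) * v := by
    intro A v hA0 hA1
    rw [← Matrix.det_permute', Matrix.det_of_isUpperTriangular]
    · refine Finset.prod_congr rfl fun a _ => ?_
      rw [Matrix.submatrix_apply, Fin.revPerm_apply, id]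
      exact hA1 a _ (by rw [Fin.val_rev]; omega)
    · intro a c hac
      simp only [id] at hac
      rw [Matrix.submatrix_apply, Fin.revPerm_apply, id]
      exact hA0 a _ (by rw [Fin.val_rev]; have := Fin.lt_def.mp hac; omega)
  have hM := key M val h0 h1
  have hA := key (Matrix.of fun a c : Fin j => if (a : ℕ) + c = j - 1 then (-1 : F) ^ (a : ℕ) else 0) 1
    (fun a c h => by rw [Matrix.of_apply, if_neg (by omega)])
    (fun a c h => by rw [Matrix.of_apply, if_pos h, mul_one])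
  simp only [mul_one] at hA
  rw [Finset.prod_mul_distrib, Finset.prod_const, Finset.card_univ, Fintype.card_fin, ← hA] at hM
  refine mul_left_cancel₀ ?_ (hM.trans (mul_assoc _ _ _))
  rcases Int.units_eq_one_or (Equiv.Perm.sign (Fin.revPerm : Equiv.Perm (Fin j))) with h | h <;> simp [h]

/-- An orthogonal family spanning a cyclic summand, with the commuting product of its reflections. -/
theorem exists_refl_family (h2 : (2 : F) ≠ 0) (hb : IsFrame g p e b) (he : ∀ i, e i ≠ 0) (hG : IsUnit G.det)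
    (hg : gᵀ * G * g = G) (hs : Gᵀ = G) {δ : F} (hδ : δ * δ = 1) {j : ℕ} (hj : Odd j)
    {x : {i : Fin m // (p i, e i) = (X - C δ, j)} → F} (hx : x ⬝ᵥ (layer g G p e b δ j *ᵥ x) ≠ 0) :
    ∃ us : Fin j → Fin N → F, (∀ k, us k ⬝ᵥ (G *ᵥ us k) ≠ 0) ∧ (∀ k l, k ≠ l → us k ⬝ᵥ (G *ᵥ us l) = 0) ∧
      (∃ R : Matrix (Fin N) (Fin N) F, R * g = g * R ∧
        ∀ v, R *ᵥ v = v - ∑ k, (2 * (us k ⬝ᵥ (G *ᵥ v)) / (us k ⬝ᵥ (G *ᵥ us k))) • us k) ∧
      IsSquare ((∏ k, us k ⬝ᵥ (G *ᵥ us k)) * (antiDet F j * (x ⬝ᵥ (layer g G p e b δ j *ᵥ x)) ^ j)) := by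
  classical
  have hj0 : 0 < j := hj.pos
  have hgu := isUnit_iso hG hg
  obtain ⟨val, hval⟩ : ∃ v, v = x ⬝ᵥ (layer g G p e b δ j *ᵥ x) := ⟨_, rfl⟩
  have hval0 : val ≠ 0 := hval ▸ hx
  obtain ⟨y, hy⟩ : ∃ y : Fin N → F, y = ∑ l : {i : Fin m // (p i, e i) = (X - C δ, j)}, x l • b l := ⟨_, rfl⟩
  have hkill : ∀ k, j ≤ k → aeval g ((X - C δ) ^ k) *ᵥ y = 0 := fun k hk => by
    rw [hy, Matrix.mulVec_sum]
    refine Finset.sum_eq_zero fun l _ => ?_
    obtain ⟨h1, h2⟩ := Prod.mk.inj l.2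
    rw [Matrix.mulVec_smul, hb.kill l.1 (by rw [h1, h2]; exact pow_dvd_pow _ hk), smul_zero]
  obtain ⟨w, hw⟩ : ∃ w, w = aeval g ((X - C δ) ^ (j - 1)) *ᵥ y := ⟨_, rfl⟩
  have hgw : g *ᵥ w = δ • w := eigen_of_pi (by
    rw [hw, Matrix.mulVec_mulVec, ← map_mul, ← pow_succ', Nat.sub_add_cancel hj0]; exact hkill j le_rfl)
  have hbw : ∀ a : {i : Fin m // (p i, e i) = (X - C δ, j)}, b a ⬝ᵥ (G *ᵥ w) = (layer g G p e b δ j *ᵥ x) a := fun a => by
    rw [hw, hy, Matrix.mulVec_sum, Matrix.mulVec_sum, dotProduct_sum]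
    refine Finset.sum_congr rfl fun l _ => ?_
    rw [Matrix.mulVec_smul, Matrix.mulVec_smul, dotProduct_smul, smul_eq_mul, mul_comm]
    rfl
  have hyw : y ⬝ᵥ (G *ᵥ w) = val := by
    rw [hval]
    conv_lhs => rw [hy, sum_dotProduct]
    refine Finset.sum_congr rfl fun l _ => ?_
    rw [smul_dotProduct, smul_eq_mul, hbw]
  obtain ⟨K, hK⟩ : ∃ K : Matrix (Fin N) (Fin j) F, K = Matrix.of fun r (k : Fin j) => (aeval g ((X - C δ) ^ (k : ℕ)) *ᵥ y) r := ⟨_, rfl⟩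
  have hcol : ∀ k : Fin j, K *ᵥ Pi.single k 1 = aeval g ((X - C δ) ^ (k : ℕ)) *ᵥ y := fun k => by
    rw [hK, Matrix.mulVec_single_one]; rfl
  have hKt : ∀ (u : Fin N → F) (k : Fin j), (Kᵀ *ᵥ u) k = (aeval g ((X - C δ) ^ (k : ℕ)) *ᵥ y) ⬝ᵥ u := fun u k => by
    rw [hK]; rfl
  obtain ⟨M, hM⟩ : ∃ M, M = Kᵀ * G * K := ⟨_, rfl⟩
  have hMac : ∀ a c : Fin j, M a c =
      (aeval g ((X - C δ) ^ (a : ℕ)) *ᵥ y) ⬝ᵥ (G *ᵥ (aeval g ((X - C δ) ^ (c : ℕ)) *ᵥ y)) := fun a c => by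
    rw [← hcol c, ← hKt, Matrix.mulVec_mulVec, Matrix.mulVec_mulVec, hM, Matrix.mul_assoc, Matrix.mulVec_single_one]
    rfl
  have hM0 : ∀ a c : Fin j, j ≤ (a : ℕ) + c → M a c = 0 := fun a c hac => by
    rw [hMac, form_pi hG hg hδ, Matrix.mulVec_mulVec y, ← map_mul, ← pow_add, hkill _ hac, Matrix.mulVec_zero,
      Matrix.mulVec_zero, dotProduct_zero]
  have hM1 : ∀ a c : Fin j, (a : ℕ) + c = j - 1 → M a c = (-1) ^ (a : ℕ) * val := fun a c hac => by
    rw [hMac, form_pi hG hg hδ, Matrix.mulVec_mulVec y, ← map_mul, ← pow_add, hac, ← hw]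
    have h1 : ((-δ) • g⁻¹) *ᵥ w = (-1 : F) • w := by
      have h3 : g⁻¹ *ᵥ w = δ • w := by
        conv_lhs => rw [show w = g *ᵥ (δ • w) by rw [Matrix.mulVec_smul, hgw, smul_smul, hδ, one_smul]]
        rw [Matrix.mulVec_mulVec, Matrix.nonsing_inv_mul _ hgu, Matrix.one_mulVec]
      rw [Matrix.smul_mulVec, h3, smul_smul, neg_mul, hδ]
    have h4 : ∀ k : ℕ, ((-δ) • g⁻¹) ^ k *ᵥ w = (-1 : F) ^ k • w := fun k => by
      induction k with
      | zero => simp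
      | succ k ih => rw [pow_succ, ← Matrix.mulVec_mulVec, h1, Matrix.mulVec_smul, ih, smul_smul, pow_succ, mul_comm]
    rw [h4, Matrix.mulVec_smul, dotProduct_smul, smul_eq_mul, hyw]
  have hMu : IsUnit M.det := by
    refine isUnit_iff_ne_zero.mpr fun hdet => ?_
    obtain ⟨v, hv0, hv⟩ := Matrix.exists_mulVec_eq_zero_iff.mpr hdet
    obtain ⟨S, hS⟩ : ∃ S, S = Finset.univ.filter fun k => v k ≠ 0 := ⟨_, rfl⟩
    have hSne : S.Nonempty := by
      obtain ⟨k, hk⟩ := Function.ne_iff.mp hv0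
      exact ⟨k, by rw [hS]; simpa using hk⟩
    obtain ⟨r, hr⟩ : ∃ r, r = S.min' hSne := ⟨_, rfl⟩
    have hvr : v r ≠ 0 := by
      have := S.min'_mem hSne
      rw [← hr, hS] at this
      exact (Finset.mem_filter.mp this).2
    have hlt : ∀ k, k < r → v k = 0 := fun k hk => by
      by_contra hne'
      exact absurd (S.min'_le k (by rw [hS]; simpa using hne')) (not_le.mpr (hr ▸ hk))
    have hrow := congrFun hv ⟨j - 1 - (r : ℕ), by omega⟩
    simp only [Matrix.mulVec, dotProduct, Pi.zero_apply] at hrow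
    rw [Finset.sum_eq_single r (fun c _ hc => ?_) (fun h => absurd (Finset.mem_univ r) h),
      hM1 _ r (by have := r.2; simp only []; omega)] at hrow
    · exact mul_ne_zero (mul_ne_zero (pow_ne_zero _ (by norm_num)) hval0) hvr hrow
    · rcases lt_or_gt_of_ne hc with h | h
      · rw [hlt c h, mul_zero]
      · have := r.2
        rw [hM0 _ c (by simp only []; rw [Fin.lt_def] at h; omega), zero_mul]
  obtain ⟨A, hA⟩ : ∃ A : Matrix (Fin j) (Fin j) F, g * K = K * A := by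
    have hex : ∀ c : Fin j, ∃ v : Fin j → F, K *ᵥ v = g *ᵥ (aeval g ((X - C δ) ^ (c : ℕ)) *ᵥ y) := fun c => by
      refine ⟨δ • Pi.single c 1 + if h : (c : ℕ) + 1 < j then Pi.single ⟨c + 1, h⟩ 1 else 0, ?_⟩
      have e1 : g *ᵥ (aeval g ((X - C δ) ^ (c : ℕ)) *ᵥ y) =
          δ • (aeval g ((X - C δ) ^ (c : ℕ)) *ᵥ y) + aeval g ((X - C δ) ^ ((c : ℕ) + 1)) *ᵥ y := by
        rw [pow_succ' (X - C δ), map_mul, ← Matrix.mulVec_mulVec, CfsgLib.SignedClasses.aeval_pi, Matrix.sub_mulVec, Matrix.smul_mulVec,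
          Matrix.one_mulVec, add_sub_cancel]
      rw [Matrix.mulVec_add, Matrix.mulVec_smul, hcol, e1]
      split_ifs with h
      · rw [hcol]
      · rw [Matrix.mulVec_zero, hkill _ (not_lt.mp h)]
    choose v hv using hex
    refine ⟨Matrix.of fun c' c => v c c', Matrix.ext_of_mulVec_single fun c => ?_⟩
    rw [← Matrix.mulVec_mulVec, ← Matrix.mulVec_mulVec, hcol, Matrix.mulVec_single_one,
      show Matrix.col (Matrix.of fun c' c => v c c') c = v c from rfl, hv]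
  have hAM : Aᵀ * M * A = M := by
    calc Aᵀ * M * A = (K * A)ᵀ * G * (K * A) := by rw [hM, Matrix.transpose_mul]; simp only [Matrix.mul_assoc]
      _ = Kᵀ * (gᵀ * G * g) * K := by rw [← hA, Matrix.transpose_mul]; simp only [Matrix.mul_assoc]
      _ = M := by rw [hg, hM]
  have hAu := isUnit_iso hMu hAM
  have hAMi : A * M⁻¹ * Aᵀ = M⁻¹ := by
    have h1 : Aᵀ * (M * A * M⁻¹) = 1 := by
      rw [← Matrix.mul_assoc, ← Matrix.mul_assoc, hAM, Matrix.mul_nonsing_inv _ hMu]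
    have h3 : M * A * M⁻¹ * Aᵀ = 1 := mul_eq_one_comm.mp h1
    calc A * M⁻¹ * Aᵀ = M⁻¹ * (M * A * M⁻¹ * Aᵀ) := by
          simp only [Matrix.mul_assoc]; rw [Matrix.nonsing_inv_mul_cancel_left _ _ hMu]
      _ = M⁻¹ := by rw [h3, Matrix.mul_one]
  have hMd : M.det = antiDet F j * val ^ j := det_anti M hM0 hM1
  have hMs : Mᵀ = M := by
    rw [hM, Matrix.transpose_mul, Matrix.transpose_mul, Matrix.transpose_transpose, hs, Matrix.mul_assoc]
  obtain ⟨d, hd⟩ : ∃ d : Fin j → F, d = Function.update (fun _ => 1) ⟨0, hj0⟩ M.det := ⟨_, rfl⟩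
  have hdd : ∏ k, d k = M.det := by
    rw [hd, Finset.prod_update_of_mem (Finset.mem_univ _)]; simp
  have hd0 : ∀ k, d k ≠ 0 := fun k hk =>
    hMu.ne_zero (by rw [← hdd]; exact Finset.prod_eq_zero (Finset.mem_univ k) hk)
  obtain ⟨a, hau, ha⟩ := congr_symm h2 hMs hMu (Matrix.diagonal_transpose d) (by rw [Matrix.det_diagonal, hdd]; exact hMu)
    (by rw [Matrix.det_diagonal, hdd]; exact ⟨M.det, rfl⟩)
  obtain ⟨K', hK'⟩ : ∃ K', K' = K * a := ⟨_, rfl⟩
  have hgram : K'ᵀ * G * K' = Matrix.diagonal d := by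
    rw [hK', Matrix.transpose_mul, ← ha, hM]; simp only [Matrix.mul_assoc]
  have hus : ∀ k l, (fun r => K' r k) ⬝ᵥ (G *ᵥ fun r => K' r l) = Matrix.diagonal d k l := fun k l => by
    rw [← hgram, Matrix.mul_assoc]; rfl
  refine ⟨fun k r => K' r k, fun k => ?_, fun k l hkl => ?_, ?_, ?_⟩
  · rw [hus, Matrix.diagonal_apply_eq]; exact hd0 k
  · rw [hus, Matrix.diagonal_apply_ne _ hkl]
  · obtain ⟨P, hP⟩ : ∃ P, P = K * M⁻¹ * (Kᵀ * G) := ⟨_, rfl⟩
    have hPg : P * g = g * P := by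
      calc P * g = K * (A * M⁻¹ * Aᵀ) * (Kᵀ * G) * g := by rw [hAMi, hP]
        _ = K * A * M⁻¹ * ((K * A)ᵀ * G * g) := by rw [Matrix.transpose_mul]; simp only [Matrix.mul_assoc]
        _ = g * K * M⁻¹ * (Kᵀ * (gᵀ * G * g)) := by rw [← hA, Matrix.transpose_mul]; simp only [Matrix.mul_assoc]
        _ = g * P := by rw [hg, hP]; simp only [Matrix.mul_assoc]
    have hPd : P = K' * Matrix.diagonal (fun k => (d k)⁻¹) * (K'ᵀ * G) := by
      have hDi : a⁻¹ * M⁻¹ * (aᵀ)⁻¹ = Matrix.diagonal (fun k => (d k)⁻¹) := by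
        refine ((Matrix.inv_eq_left_inv (A := Matrix.diagonal d) ?_).symm.trans (Matrix.inv_eq_left_inv ?_))
        · rw [← ha]
          simp only [Matrix.mul_assoc, Matrix.nonsing_inv_mul_cancel_left _ _ (show IsUnit aᵀ.det by rwa [Matrix.det_transpose]),
            Matrix.nonsing_inv_mul_cancel_left _ _ hMu, Matrix.nonsing_inv_mul _ hau]
        · rw [Matrix.diagonal_mul_diagonal, ← Matrix.diagonal_one]
          exact congrArg _ (funext fun k => inv_mul_cancel₀ (hd0 k))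
      rw [hP, ← hDi, hK', Matrix.transpose_mul]
      simp only [Matrix.mul_assoc, Matrix.mul_nonsing_inv_cancel_left _ _ hau,
        Matrix.nonsing_inv_mul_cancel_left _ _ (show IsUnit aᵀ.det by rwa [Matrix.det_transpose])]
    refine ⟨1 - (2 : F) • P, by rw [Matrix.sub_mul, Matrix.mul_sub, Matrix.smul_mul, Matrix.mul_smul, hPg, Matrix.one_mul,
      Matrix.mul_one], fun v => ?_⟩
    rw [Matrix.sub_mulVec, Matrix.one_mulVec, Matrix.smul_mulVec, hPd, ← Matrix.mulVec_mulVec, ← Matrix.mulVec_mulVec]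
    congr 1
    ext r
    rw [Pi.smul_apply, smul_eq_mul, Finset.sum_apply, Matrix.mulVec, dotProduct, Finset.mul_sum]
    refine Finset.sum_congr rfl fun k _ => ?_
    rw [Pi.smul_apply, smul_eq_mul, hus, Matrix.diagonal_apply_eq, Matrix.mulVec_diagonal, ← Matrix.mulVec_mulVec]
    show 2 * (K' r k * ((d k)⁻¹ * ((fun i => K' i k) ⬝ᵥ (G *ᵥ v)))) = _
    ring
  · rw [Finset.prod_congr rfl (fun k _ => (hus k k).trans (Matrix.diagonal_apply_eq _ _)), hdd, ← hval, ← hMd]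
    exact ⟨M.det, rfl⟩

omit [Fintype F] in
/-- A layer of size two or more represents every nonzero value. -/
theorem exists_value_of_two [Fintype F] (h2 : (2 : F) ≠ 0) {κ : Type*} [Fintype κ] [DecidableEq κ] {B : Matrix κ κ F}
    (hB : Bᵀ = B) (hBu : IsUnit B.det) {i l : κ} (hil : i ≠ l) {a : F} (ha : a ≠ 0) : ∃ x, x ⬝ᵥ (B *ᵥ x) = a := by
  obtain ⟨d, hd⟩ : ∃ d : κ → F, d = Function.update (Function.update (fun _ => 1) l (B.det / a)) i a := ⟨_, rfl⟩
  have hdet : ∏ k, d k = B.det := by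
    rw [hd, Finset.prod_update_of_mem (Finset.mem_univ _),
      Finset.prod_update_of_mem (by simp [Ne.symm hil] : l ∈ (Finset.univ : Finset κ) \ {i})]
    simp [mul_div_cancel₀ _ ha]
  obtain ⟨R, -, hR⟩ := congr_symm h2 hB hBu (Matrix.diagonal_transpose d) (by rw [Matrix.det_diagonal, hdet]; exact hBu)
    (by rw [Matrix.det_diagonal, hdet]; exact ⟨B.det, rfl⟩)
  refine ⟨R *ᵥ Pi.single i 1, ?_⟩
  have : (R *ᵥ Pi.single i 1) ⬝ᵥ (B *ᵥ (R *ᵥ Pi.single i 1)) = Pi.single i 1 ⬝ᵥ ((Rᵀ * B * R) *ᵥ Pi.single i 1) := by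
    rw [← Matrix.mulVec_mulVec, ← Matrix.mulVec_mulVec]
    conv_rhs => rw [Matrix.dotProduct_mulVec, Matrix.vecMul_transpose]
  rw [this, hR]
  simp [hd]

open CfsgLib.Forms QuadraticMap in
theorem reflProd_orth {V : Type*} [AddCommGroup V] [Module F V] [FiniteDimensional F V] {Q : QuadraticForm F V} :
    ∀ l : List {u : V // Q u ≠ 0}, l.Pairwise (fun u w => polar Q u.1 w.1 = 0) → ∀ v,
      reflProd Q l v = v - (l.map fun u => ((Q u.1)⁻¹ * polar Q v u.1) • u.1).sum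
  | [], _, v => by simp [reflProd]
  | u :: l, h, v => by
    obtain ⟨hu, hl⟩ := List.pairwise_cons.mp h
    show refl Q u.1 u.2 (reflProd Q l v) = _
    rw [reflProd_orth l hl v, refl_apply, List.map_cons, List.sum_cons]
    have hz : polar Q ((l.map fun w => ((Q w.1)⁻¹ * polar Q v w.1) • w.1).sum) u.1 = 0 := by
      have : ∀ l' : List {u : V // Q u ≠ 0}, (∀ w ∈ l', polar Q u.1 w.1 = 0) →
          polar Q ((l'.map fun w => ((Q w.1)⁻¹ * polar Q v w.1) • w.1).sum) u.1 = 0 := by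
        intro l'
        induction l' with
        | nil => intro _; simp [polar]
        | cons w l' ih =>
          intro hw
          rw [List.map_cons, List.sum_cons, polar_add_left, polar_smul_left, polar_comm Q w.1 u.1,
            hw w List.mem_cons_self, ih fun z hz => hw z (List.mem_cons_of_mem _ hz), smul_zero, add_zero]
      exact this l hu
    rw [polar_sub_left, hz, sub_zero]
    abel

open CfsgLib.Forms QuadraticMap in
/-- If the centraliser of `g` has determinant-one part inside `Ω`, all summand discriminants agree. -/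
theorem square_of_split (h2 : (2 : F) ≠ 0) (Q : QuadraticForm F (Fin N → F)) (hQ : (polarBilin Q).Nondegenerate)
    (hQG : ∀ u v, polar Q u v = u ⬝ᵥ (G *ᵥ v))
    (hb : IsFrame g p e b) (he : ∀ i, e i ≠ 0) (hG : IsUnit G.det) (hg : gᵀ * G * g = G) (hs : Gᵀ = G)
    (hP : ∀ R : Cfsg.isometryGroup F ⇑Q, R.1.1 * g = g * R.1.1 → R.1.1.det = 1 → R ∈ Cfsg.Omega F ⇑Q)
    {δ δ' : F} (hδ : δ * δ = 1) (hδ' : δ' * δ' = 1) {j j' : ℕ} (hj : Odd j) (hj' : Odd j')
    {x : {i : Fin m // (p i, e i) = (X - C δ, j)} → F} (hx : x ⬝ᵥ (layer g G p e b δ j *ᵥ x) ≠ 0)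
    {x' : {i : Fin m // (p i, e i) = (X - C δ', j')} → F} (hx' : x' ⬝ᵥ (layer g G p e b δ' j' *ᵥ x') ≠ 0) :
    IsSquare ((antiDet F j * (x ⬝ᵥ (layer g G p e b δ j *ᵥ x)) ^ j) *
      (antiDet F j' * (x' ⬝ᵥ (layer g G p e b δ' j' *ᵥ x')) ^ j')) := by
  have hQv : ∀ u, u ⬝ᵥ (G *ᵥ u) = 2 * Q u := fun u => by
    rw [← hQG, polar_self, nsmul_eq_mul, Nat.cast_ofNat]
  have hmk : ∀ (k : ℕ) (us : Fin k → Fin N → F), (∀ i, us i ⬝ᵥ (G *ᵥ us i) ≠ 0) →
      (∀ i l, i ≠ l → us i ⬝ᵥ (G *ᵥ us l) = 0) → ∀ R : Matrix (Fin N) (Fin N) F,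
      (∀ v, R *ᵥ v = v - ∑ i, (2 * (us i ⬝ᵥ (G *ᵥ v)) / (us i ⬝ᵥ (G *ᵥ us i))) • us i) →
      ∃ l : List {u : Fin N → F // Q u ≠ 0}, l.length = k ∧ (∀ v, reflProd Q l v = R *ᵥ v) ∧
        valueProd Q l * 2 ^ k = ∏ i, us i ⬝ᵥ (G *ᵥ us i) := by
    intro k us h0 horth R hR
    have hne : ∀ i, Q (us i) ≠ 0 := fun i hz => h0 i (by rw [hQv, hz, mul_zero])
    refine ⟨List.ofFn fun i => ⟨us i, hne i⟩, List.length_ofFn, fun v => ?_, ?_⟩
    · rw [reflProd_orth _ (List.pairwise_ofFn.mpr fun i l hil => by rw [hQG]; exact horth i l hil.ne), hR,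
        List.map_ofFn, List.sum_ofFn]
      refine congrArg _ (Finset.sum_congr rfl fun i _ => ?_)
      simp only [Function.comp]
      congr 1
      rw [hQv, polar_comm, hQG, mul_div_mul_left _ _ h2, div_eq_inv_mul]
    · rw [valueProd, List.map_ofFn, List.prod_ofFn, Finset.prod_congr rfl (fun i _ => hQv (us i)),
        Finset.prod_mul_distrib, Finset.prod_const, Finset.card_univ, Fintype.card_fin]
      simp [Function.comp_def, mul_comm]
  obtain ⟨us, hu0, huo, ⟨R, hRg, hR⟩, hsq⟩ := exists_refl_family h2 hb he hG hg hs hδ hj hx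
  obtain ⟨us', hu0', huo', ⟨R', hRg', hR'⟩, hsq'⟩ := exists_refl_family h2 hb he hG hg hs hδ' hj' hx'
  obtain ⟨l, hl, hlR, hlv⟩ := hmk j us hu0 huo R hR
  obtain ⟨l', hl', hlR', hlv'⟩ := hmk j' us' hu0' huo' R' hR'
  obtain ⟨T, hT⟩ : ∃ T, T = listGL Q (l ++ l') := ⟨_, rfl⟩
  have hTiso := hT ▸ isoEquiv_listGL (Q := Q) (l ++ l')
  have hTm : T.1.1 = R * R' := Matrix.ext_of_mulVec_single fun k => by
    rw [← glEquiv_apply, ← coe_isoEquiv Q T, hTiso, ← Matrix.mulVec_mulVec]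
    show reflProd Q (l ++ l') _ = _
    rw [reflProd_append, LinearEquiv.mul_apply, hlR', hlR]
  have hev : Even (l ++ l').length := by rw [List.length_append, hl, hl']; exact hj.add_odd hj'
  have hmem := hP T (by rw [hTm, Matrix.mul_assoc, hRg', ← Matrix.mul_assoc, hRg, Matrix.mul_assoc]) (by
    rw [det_of_list hTiso, hev.neg_one_pow])
  obtain ⟨-, hsqv⟩ := (mem_Omega_of_list hQ (Or.inl (natCard_ne_two h2)) hTiso).mp hmem
  have hval : valueProd Q (l ++ l') = valueProd Q l * valueProd Q l' := by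
    rw [valueProd, valueProd, valueProd, List.map_append, List.prod_append]
  obtain ⟨t, ht⟩ := hj.add_odd hj'
  have hall : IsSquare ((∏ k, us k ⬝ᵥ (G *ᵥ us k)) * ∏ k, us' k ⬝ᵥ (G *ᵥ us' k)) := by
    rw [← hlv, ← hlv', mul_mul_mul_comm, ← pow_add, ht, ← hval]
    exact hsqv.mul ⟨2 ^ t, pow_add 2 t t⟩
  obtain ⟨r, hr⟩ := (hsq.mul hsq').mul hall
  have hp0 : (∏ k, us k ⬝ᵥ (G *ᵥ us k)) * ∏ k, us' k ⬝ᵥ (G *ᵥ us' k) ≠ 0 :=
    mul_ne_zero (Finset.prod_ne_zero_iff.mpr fun k _ => hu0 k) (Finset.prod_ne_zero_iff.mpr fun k _ => hu0' k)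
  refine ⟨r / ((∏ k, us k ⬝ᵥ (G *ᵥ us k)) * ∏ k, us' k ⬝ᵥ (G *ᵥ us' k)), ?_⟩
  rw [div_mul_div_comm, eq_div_iff (mul_ne_zero hp0 hp0), ← hr]
  ring

end CfsgLib.OmegaClasses
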