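import Cfsg.Agent.OmegaClasses.Refl
import Cfsg.Agent.OmegaClasses.Count

/-!
Classes of an odd-dimensional orthogonal group whose centraliser is as small as possible modulo `Ω`.
-/

set_option autoImplicit false

namespace CfsgLib.OmegaClasses

open Polynomial Matrix CfsgLib.GLClassCount CfsgLib.GUClassCount CfsgLib.SignedClasses
open scoped Classical

variable {F : Type*} [Field F] [Fintype F] {N : ℕ}

/-- The determinant-one centraliser lies in `Ω`. -/
def IsSplit (Q : QuadraticForm F (Fin N → F)) (g : Matrix (Fin N) (Fin N) F) : Prop :=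
  ∀ R : Cfsg.isometryGroup F ⇑Q, R.1.1 * g = g * R.1.1 → R.1.1.det = 1 → R ∈ Cfsg.Omega F ⇑Q

theorem IsSplit.conj {Q : QuadraticForm F (Fin N → F)} {g : Matrix (Fin N) (Fin N) F} (h : IsSplit Q g)
    (u : Cfsg.isometryGroup F ⇑Q) : IsSplit Q (u.1.1 * g * u⁻¹.1.1) := by
  intro R hR hd
  have hu : u.1.1 * u⁻¹.1.1 = 1 := congrArg Units.val (mul_inv_cancel u.1)
  have hu' : u⁻¹.1.1 * u.1.1 = 1 := congrArg Units.val (inv_mul_cancel u.1)
  have hS := h (u⁻¹ * R * u) (by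
    show u⁻¹.1.1 * R.1.1 * u.1.1 * g = g * (u⁻¹.1.1 * R.1.1 * u.1.1)
    calc u⁻¹.1.1 * R.1.1 * u.1.1 * g = u⁻¹.1.1 * (R.1.1 * (u.1.1 * g * u⁻¹.1.1)) * u.1.1 := by
          simp only [Matrix.mul_assoc, hu', Matrix.mul_one]
      _ = u⁻¹.1.1 * (u.1.1 * g * u⁻¹.1.1 * R.1.1) * u.1.1 := by rw [hR]
      _ = g * (u⁻¹.1.1 * R.1.1 * u.1.1) := by
          rw [← Matrix.mul_assoc u⁻¹.1.1, ← Matrix.mul_assoc u⁻¹.1.1, ← Matrix.mul_assoc u⁻¹.1.1, hu', Matrix.one_mul]
          simp only [Matrix.mul_assoc]) (by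
    show (u⁻¹.1.1 * R.1.1 * u.1.1).det = 1
    rw [Matrix.det_mul_comm, ← Matrix.mul_assoc, hu, Matrix.one_mul, hd])
  have hn : (Cfsg.Omega F ⇑Q).Normal := inferInstance
  have := hn.conj_mem _ hS u
  simpa [mul_assoc] using this

omit [Fintype F] in
theorem frame_transport {g g' c : Matrix (Fin N) (Fin N) F} (hc : IsUnit c.det) (h : c * g = g' * c) {m : ℕ}
    {p : Fin m → F[X]} {e : Fin m → ℕ} {b : Fin m → Fin N → F} (hb : IsFrame g p e b) :
    IsFrame g' p e (fun i => c *ᵥ b i) ∧ ∀ (G : Matrix (Fin N) (Fin N) F) (δ : F) (j : ℕ),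
      layer g' G p e (fun i => c *ᵥ b i) δ j = layer g (cᵀ * G * c) p e b δ j := by
  have hae : ∀ u : F[X], aeval g' u * c = c * aeval g u := fun u => by
    induction u using Polynomial.induction_on' with
    | add p q hp hq => rw [map_add, map_add, Matrix.add_mul, Matrix.mul_add, hp, hq]
    | monomial k a =>
      rw [aeval_monomial, aeval_monomial, Algebra.algebraMap_eq_smul_one, Matrix.smul_mul, Matrix.one_mul,
        Matrix.smul_mul, Matrix.smul_mul, Matrix.one_mul, Matrix.mul_smul]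
      congr 1
      exact ((show SemiconjBy c g g' from h).pow_right k).eq.symm
  have hcom : ∀ u : Fin m → F[X], com g' (fun i => c *ᵥ b i) u = c *ᵥ com g b u := fun u => by
    simp only [com, Matrix.mulVec_sum, Matrix.mulVec_mulVec, hae]
  have hcu := (Matrix.isUnit_iff_isUnit_det c).mpr hc
  refine ⟨⟨fun v => ?_, fun u => ?_⟩, fun G δ j => ?_⟩
  · obtain ⟨w, rfl⟩ := Matrix.mulVec_surjective_iff_isUnit.mpr hcu v
    obtain ⟨u, rfl⟩ := hb.span w
    exact ⟨u, (hcom u).symm⟩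
  · rw [hcom, ← hb.rel]
    exact ⟨fun h0 => Matrix.mulVec_injective_iff_isUnit.mpr hcu (h0.trans (Matrix.mulVec_zero c).symm),
      fun h0 => by rw [h0, Matrix.mulVec_zero]⟩
  · ext a l
    simp only [layer, Matrix.of_apply]
    rw [Matrix.mulVec_mulVec (b l), hae, ← Matrix.mulVec_mulVec (b l), ← Matrix.mulVec_mulVec, ← Matrix.mulVec_mulVec,
      Matrix.dotProduct_mulVec (b a), Matrix.vecMul_transpose]

theorem antiDet_ne_zero (j : ℕ) : antiDet F j ≠ 0 := by
  intro hz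
  have hM : (Matrix.of fun a c : Fin j => if (a : ℕ) + c = j - 1 then (-1 : F) ^ (a : ℕ) else 0).det = 0 := hz
  obtain ⟨v, hv0, hv⟩ := Matrix.exists_mulVec_eq_zero_iff.mpr hM
  obtain ⟨a, ha⟩ := Function.ne_iff.mp hv0
  have hrow := congrFun hv ⟨j - 1 - (a : ℕ), by omega⟩
  simp only [Matrix.mulVec, dotProduct, Matrix.of_apply, Pi.zero_apply] at hrow
  rw [Finset.sum_eq_single a (fun c _ hc => by
    rw [if_neg, zero_mul]
    have : (c : ℕ) ≠ a := fun h => hc (Fin.ext h)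
    try simp only []
    have := a.2; omega) (by simp), if_pos (by have := a.2; omega)] at hrow
  exact ha ((mul_eq_zero.mp hrow).resolve_left (pow_ne_zero _ (neg_ne_zero.mpr one_ne_zero)))

/-- Under the split condition every odd layer has size at most one and the twisted discriminants agree. -/
theorem layer_of_split (h2 : (2 : F) ≠ 0) (Q : QuadraticForm F (Fin N → F))
    (hQ : (QuadraticMap.polarBilin Q).Nondegenerate) {G g : Matrix (Fin N) (Fin N) F}
    (hQG : ∀ u v, QuadraticMap.polar Q u v = u ⬝ᵥ (G *ᵥ v)) (hG : IsUnit G.det) (hs : Gᵀ = G) (hg : gᵀ * G * g = G)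
    {m : ℕ} {p : Fin m → F[X]} {e : Fin m → ℕ} {b : Fin m → Fin N → F} (hb : IsFrame g p e b)
    (hp : ∀ i, Irreducible (p i) ∧ (p i).Monic) (he : ∀ i, e i ≠ 0) (hP : IsSplit Q g) :
    (∀ δ : F, δ * δ = 1 → ∀ j, Odd j → Fintype.card {i : Fin m // (p i, e i) = (X - C δ, j)} ≤ 1) ∧
      ∀ δ δ' : F, δ * δ = 1 → δ' * δ' = 1 → ∀ j j', Odd j → Odd j' →
        Nonempty {i : Fin m // (p i, e i) = (X - C δ, j)} → Nonempty {i : Fin m // (p i, e i) = (X - C δ', j')} →
        IsSquare ((antiDet F j * (layer g G p e b δ j).det) * (antiDet F j' * (layer g G p e b δ' j').det)) := by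
  have hsym : ∀ (δ : F), δ * δ = 1 → ∀ j, Odd j → (layer g G p e b δ j)ᵀ = layer g G p e b δ j := fun δ hδ j hj => by
    have h := layer_transpose hb he hG hg hδ (ε := 1) (by rw [one_smul]; exact hs) j
    obtain ⟨k, rfl⟩ := hj
    rwa [show 2 * k + 1 - 1 = 2 * k by omega, (even_two_mul k).neg_one_pow, mul_one, one_smul] at h
  have hsize : ∀ δ : F, δ * δ = 1 → ∀ j, Odd j → Fintype.card {i : Fin m // (p i, e i) = (X - C δ, j)} ≤ 1 := by
    intro δ hδ j hj
    by_contra hcard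
    obtain ⟨i, l, hil⟩ := Fintype.exists_pair_of_one_lt_card (not_le.mp hcard)
    have hB := layer_det hb hp he hG hg hδ j
    obtain ⟨ν, hν⟩ := FiniteField.exists_nonsquare (F := F) fun hc => h2 (by
      exact_mod_cast (ringChar.spec F 2).mpr (dvd_of_eq hc))
    have hν0 : ν ≠ 0 := fun e => hν (e ▸ IsSquare.zero)
    obtain ⟨x, hx⟩ := exists_value_of_two h2 (hsym δ hδ j hj) hB hil (one_ne_zero (α := F))
    obtain ⟨y, hy⟩ := exists_value_of_two h2 (hsym δ hδ j hj) hB hil hν0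
    have h := square_of_split h2 Q hQ hQG hb he hG hg hs hP hδ hδ hj hj (x := x) (x' := y)
      (by rw [hx]; exact one_ne_zero) (by rw [hy]; exact hν0)
    rw [hx, hy, one_pow, mul_one, ← mul_assoc] at h
    obtain ⟨k, rfl⟩ := hj
    obtain ⟨r, hr⟩ := h
    have ha := antiDet_ne_zero (F := F) (2 * k + 1)
    refine hν ⟨r / (antiDet F (2 * k + 1) * ν ^ k), ?_⟩
    have := pow_ne_zero k hν0
    field_simp
    linear_combination hr
  refine ⟨hsize, fun δ δ' hδ hδ' j j' hj hj' ⟨a⟩ ⟨a'⟩ => ?_⟩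
  have hone : ∀ (δ : F) (hδ : δ * δ = 1) (j : ℕ) (hj : Odd j) (a : {i : Fin m // (p i, e i) = (X - C δ, j)}),
      (1 : {i : Fin m // (p i, e i) = (X - C δ, j)} → F) ⬝ᵥ (layer g G p e b δ j *ᵥ 1) = (layer g G p e b δ j).det := by
    intro δ hδ j hj a
    haveI : Unique {i : Fin m // (p i, e i) = (X - C δ, j)} :=
      @uniqueOfSubsingleton _ (Fintype.card_le_one_iff_subsingleton.mp (hsize δ hδ j hj)) a
    rw [Matrix.det_unique]
    simp [Matrix.mulVec, dotProduct, Subsingleton.elim default a]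
  have h1 := hone δ hδ j hj a
  have h1' := hone δ' hδ' j' hj' a'
  have hn := (layer_det hb hp he hG hg hδ j).ne_zero
  have hn' := (layer_det hb hp he hG hg hδ' j').ne_zero
  have h := square_of_split h2 Q hQ hQG hb he hG hg hs hP hδ hδ' hj hj' (x := 1) (x' := 1)
    (by rw [h1]; exact hn) (by rw [h1']; exact hn')
  rw [h1, h1'] at h
  obtain ⟨k, rfl⟩ := hj
  obtain ⟨k', rfl⟩ := hj'
  obtain ⟨r, hr⟩ := h
  refine ⟨r / ((layer g G p e b δ (2 * k + 1)).det ^ k * (layer g G p e b δ' (2 * k' + 1)).det ^ k'), ?_⟩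
  have := pow_ne_zero k hn
  have := pow_ne_zero k' hn'
  field_simp
  linear_combination hr

theorem bool_of_square {a b : F} (ha : a ≠ 0) (hb : b ≠ 0) (h : IsSquare (a * b)) : IsSquare a ↔ IsSquare b := by
  obtain ⟨r, hr⟩ := h
  exact ⟨fun ⟨s, hs⟩ => ⟨r / s, by
    have : s ≠ 0 := fun e => ha (by rw [hs, e, mul_zero])
    subst hs; field_simp; linear_combination hr⟩,
    fun ⟨s, hs⟩ => ⟨r / s, by
    have : s ≠ 0 := fun e => hb (by rw [hs, e, mul_zero])
    subst hs; field_simp; linear_combination hr⟩⟩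

/-- Split classes inject into the tuples with simple roots in the first slot. -/
theorem card_split_le (h2 : (2 : F) ≠ 0) (hN : Odd N) (Q : QuadraticForm F (Fin N → F))
    (hQ : (QuadraticMap.polarBilin Q).Nondegenerate) (G : Matrix (Fin N) (Fin N) F)
    (hQG : ∀ u v, QuadraticMap.polar Q u v = u ⬝ᵥ (G *ᵥ v)) (hG : IsUnit G.det) (hs : Gᵀ = G) :
    Nat.card {C : ConjClasses (isoGroup G) // IsSplit Q (Quotient.out C : isoGroup G).1.1} ≤
      bndC (splitC (Fintype.card F)) N 0 N := by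
  refine le_trans ?_ (card_simple_tuples h2 N hN.pos)
  have := finite_stup (F := F) sigmaOrth N 0 N (Nat.zero_le N)
  choose m p e hprop hT using fun g : GL (Fin N) F => exists_data g
  choose b hb using fun g : GL (Fin N) F => exists_frame g.1 (hT g)
  have hp : ∀ g, ∀ i, Irreducible (p g i) ∧ (p g i).Monic := fun g i => ⟨((hprop g).1 i).1, ((hprop g).1 i).2.1⟩
  have he : ∀ g, ∀ i, e g i ≠ 0 := fun g i => ((hprop g).1 i).2.2
  have hp0 : ∀ g i, (p g i).coeff 0 ≠ 0 := fun g i h => (hprop g).2.2.1 i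
    (eq_of_monic_of_associated monic_X ((hprop g).1 i).2.1
      (irreducible_X.associated_of_dvd ((hprop g).1 i).1 (X_dvd_iff.mpr h))).symm
  let S := {C : ConjClasses (isoGroup G) // IsSplit Q (Quotient.out C : isoGroup G).1.1}
  let rep : S → GL (Fin N) F := fun C => (Quotient.out C.1 : isoGroup G).1
  have hrep : ∀ C, (rep C).1ᵀ * G * (rep C).1 = G := fun C => (Quotient.out C.1 : isoGroup G).2
  have hsG : Gᵀ = (1 : F) • G := by rw [one_smul]; exact hs
  have hodd : ∀ j : ℕ, sigmaOrth j = true → Odd (j + 1) := fun j h => by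
    rw [sigmaOrth, decide_eq_true_eq] at h; exact ⟨j / 2, by omega⟩
  have hev : ∀ j : ℕ, sigmaOrth j = false → (1 : F) * (-1) ^ j = -1 := fun j h => by
    rw [sigmaOrth, decide_eq_false_iff_not] at h
    rw [one_mul, (show Odd j from Nat.odd_iff.mpr (by omega)).neg_one_pow]
  let code : S → STup F sigmaOrth N 0 N := fun C =>
    ⟨⟨encode (p (rep C)) (e (rep C)) N,
      fun j => ⟨monic_prod_of_monic _ _ fun i _ => ((hprop (rep C)).1 i).2.1, by
        rw [encode, coeff_zero_prod]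
        exact Finset.prod_ne_zero_iff.mpr fun i _ => hp0 (rep C) i⟩,
      fun j hj => absurd hj (Nat.not_lt_zero _),
      (encode_weight (fun i => ((hprop (rep C)).1 i).2.1) (fun i => ((hprop (rep C)).1 i).2.2)
        (hprop (rep C)).2.1).1.trans (hprop (rep C)).2.2.2⟩,
      fun j => ⟨encode_recip (rep C) hG (hrep C) (hprop (rep C)).1 (hp0 (rep C)) (hT (rep C)) j, fun hj δ hδ =>
        encode_even h2 hG (hrep C) (hb (rep C)) (hprop (rep C)).1 hsG hδ j (hev j hj)⟩⟩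
  have hsimple : ∀ C (δ : F), δ * δ = 1 → ((code C).1.1 ⟨0, hN.pos⟩).rootMultiplicity δ ≤ 1 := fun C δ hδ => by
    show (encode (p (rep C)) (e (rep C)) N ⟨0, hN.pos⟩).rootMultiplicity δ ≤ 1
    rw [rootMultiplicity_encode (hprop (rep C)).1]
    exact (layer_of_split h2 Q hQ hQG hG hs (hrep C) (hb _) (hp _) (he _) C.2).1 δ hδ 1 odd_one
  refine Nat.card_le_card_of_injective (fun C : S => (⟨code C, hsimple C⟩ :
    {h : STup F sigmaOrth N 0 N // ∀ δ : F, δ * δ = 1 → (h.1.1 ⟨0, hN.pos⟩).rootMultiplicity δ ≤ 1})) fun C D hCD => ?_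
  have he' : encode (p (rep C)) (e (rep C)) N = encode (p (rep D)) (e (rep D)) N :=
    congrArg (fun t : {h : STup F sigmaOrth N 0 N // ∀ δ : F, δ * δ = 1 → (h.1.1 ⟨0, hN.pos⟩).rootMultiplicity δ ≤ 1} =>
      t.1.1.1) hCD
  obtain ⟨g, hgdef⟩ : ∃ g, g = rep C := ⟨_, rfl⟩
  obtain ⟨c, hc⟩ := isConj_iff.mp (conj_of_encode (rep C) (rep D) (hprop _).1 (hprop _).1 (hprop _).2.1
    (hprop _).2.1 (hT _) (hT _) he')
  have hcM : c.1 * g.1 = (rep D).1 * c.1 := by
    rw [hgdef]; exact congrArg Units.val (mul_inv_eq_iff_eq_mul.mp hc)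
  have hcu : IsUnit c.1.det := (Matrix.isUnit_iff_isUnit_det _).mp c.isUnit
  obtain ⟨hbD, hlay⟩ := frame_transport hcu hcM (hb g)
  obtain ⟨H, hH⟩ : ∃ H, H = c.1ᵀ * G * c.1 := ⟨_, rfl⟩
  have hgG : g.1ᵀ * G * g.1 = G := hgdef ▸ hrep C
  have hHu : IsUnit H.det := by
    rw [hH, Matrix.det_mul, Matrix.det_mul, Matrix.det_transpose]; exact (hcu.mul hG).mul hcu
  have hHs : Hᵀ = (1 : F) • H := by
    rw [one_smul, hH, Matrix.transpose_mul, Matrix.transpose_mul, Matrix.transpose_transpose, hs, Matrix.mul_assoc]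
  have hHg : g.1ᵀ * H * g.1 = H := by
    rw [hH]
    calc g.1ᵀ * (c.1ᵀ * G * c.1) * g.1 = (c.1 * g.1)ᵀ * G * (c.1 * g.1) := by
          simp only [Matrix.transpose_mul, Matrix.mul_assoc]
      _ = c.1ᵀ * ((rep D).1ᵀ * G * (rep D).1) * c.1 := by
          rw [hcM]; simp only [Matrix.transpose_mul, Matrix.mul_assoc]
      _ = _ := by rw [hrep D]
  obtain ⟨hszC, hC⟩ := layer_of_split h2 Q hQ hQG hG hs hgG (hb g) (hp g) (he g) (hgdef ▸ C.2)
  obtain ⟨-, hD⟩ := layer_of_split h2 Q hQ hQG hG hs (hrep D) hbD (hp g) (he g) D.2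
  simp only [hlay, ← hH] at hD
  have hfin : ∀ (w : F), (∀ δ : F, δ * δ = 1 → ∀ j, Odd j →
      Nonempty {i : Fin (m g) // (p g i, e g i) = (X - Polynomial.C δ, j)} →
      IsSquare (w * (layer g.1 G (p g) (e g) (b g) δ j).det * (layer g.1 H (p g) (e g) (b g) δ j).det)) →
      w ≠ 0 → ∃ Qm : Matrix (Fin N) (Fin N) F, IsUnit Qm.det ∧ Qm * g.1 = g.1 * Qm ∧ Qmᵀ * (w • G) * Qm = H := by
    intro w hsq hw
    refine congr_of_disc h2 (hb g) (hp g) (he g) (one_mul 1) (G := w • G) ?_ hHu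
      (by rw [Matrix.transpose_smul, hs, one_smul]) hHs
      (by rw [Matrix.mul_smul, Matrix.smul_mul, hgG]) hHg fun δ hδ j hj => ?_
    · rw [Matrix.det_smul]; exact (IsUnit.pow _ hw.isUnit).mul hG
    rcases isEmpty_or_nonempty {i : Fin (m g) // (p g i, e g i) = (X - Polynomial.C δ, j)} with hemp | hne
    · rw [Matrix.det_isEmpty, Matrix.det_isEmpty, mul_one]; exact IsSquare.one
    have hj0 : 0 < j := by
      obtain ⟨i, hi⟩ := id hne
      exact Nat.pos_of_ne_zero ((Prod.mk.inj hi).2 ▸ he g i)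
    have hjo : Odd j := by
      rcases Nat.even_or_odd (j - 1) with ⟨k, hk⟩ | h
      · exact ⟨k, by omega⟩
      · rw [h.neg_one_pow, one_mul] at hj; exact absurd (show (2 : F) = 0 by linear_combination -hj) h2
    have hcard : Fintype.card {i : Fin (m g) // (p g i, e g i) = (X - Polynomial.C δ, j)} = 1 :=
      le_antisymm (hszC δ hδ j hjo) Fintype.card_pos
    have hl : layer g.1 (w • G) (p g) (e g) (b g) δ j = w • layer g.1 G (p g) (e g) (b g) δ j := by
      ext a l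
      simp only [layer, Matrix.of_apply, Matrix.smul_apply, Matrix.smul_mulVec, dotProduct_smul]
    rw [hl, Matrix.det_smul, hcard, pow_one]
    exact hsq δ hδ j hjo hne
  by_contra hne
  have hfinal : ∀ (Qm : Matrix (Fin N) (Fin N) F), IsUnit Qm.det → Qm * g.1 = g.1 * Qm → Qmᵀ * G * Qm = H → False := by
    intro Qm hQu hQg hQf
    obtain ⟨q, hq⟩ : ∃ q : GL (Fin N) F, q.1 = Qm := ⟨((Matrix.isUnit_iff_isUnit_det Qm).mpr hQu).unit, rfl⟩
    obtain ⟨u, hu⟩ : ∃ u, u = c * q⁻¹ := ⟨_, rfl⟩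
    have huG : u ∈ isoGroup G := by
      rw [mem_isoGroup, hu]
      show (c.1 * q⁻¹.1)ᵀ * G * (c.1 * q⁻¹.1) = G
      calc (c.1 * q⁻¹.1)ᵀ * G * (c.1 * q⁻¹.1) = q⁻¹.1ᵀ * (c.1ᵀ * G * c.1) * q⁻¹.1 := by
            simp only [Matrix.transpose_mul, Matrix.mul_assoc]
        _ = (q.1 * q⁻¹.1)ᵀ * G * (q.1 * q⁻¹.1) := by
            rw [← hH, ← hQf, ← hq]; simp only [Matrix.transpose_mul, Matrix.mul_assoc]
        _ = G := by rw [Units.mul_inv, Matrix.transpose_one, Matrix.one_mul, Matrix.mul_one]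
    have hqg : q * g = g * q := Units.ext (by rw [Units.val_mul, Units.val_mul, hq]; exact hQg)
    refine hne (Subtype.ext ?_)
    rw [← Quotient.out_eq C.1, ← Quotient.out_eq D.1]
    refine Quotient.sound (show IsConj (Quotient.out C.1 : isoGroup G) (Quotient.out D.1) from ?_)
    refine isConj_iff.mpr ⟨⟨u, huG⟩, Subtype.ext (mul_inv_eq_iff_eq_mul.mpr ?_)⟩
    show u * rep C = rep D * u
    rw [hu, ← hgdef, mul_assoc, show q⁻¹ * g = g * q⁻¹ by rw [inv_mul_eq_iff_eq_mul, ← mul_assoc, hqg, mul_inv_cancel_right],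
      ← mul_assoc, ← mul_assoc]
    congr 1
    exact Units.ext hcM
  by_cases hall : ∀ δ : F, δ * δ = 1 → ∀ j, Odd j →
      Nonempty {i : Fin (m g) // (p g i, e g i) = (X - Polynomial.C δ, j)} →
      IsSquare ((layer g.1 G (p g) (e g) (b g) δ j).det * (layer g.1 H (p g) (e g) (b g) δ j).det)
  · obtain ⟨Qm, hQu, hQg, hQf⟩ := hfin 1 (fun δ hδ j hj hn => by rw [one_mul]; exact hall δ hδ j hj hn) one_ne_zero
    exact hfinal Qm hQu hQg (by rwa [one_smul] at hQf)
  push Not at hall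
  obtain ⟨δ₀, hδ₀, j₀, hj₀, hn₀, hns⟩ := hall
  obtain ⟨ν, hν⟩ := FiniteField.exists_nonsquare (F := F) fun hc => h2 (by
    exact_mod_cast (ringChar.spec F 2).mpr (dvd_of_eq hc))
  have hν0 : ν ≠ 0 := fun e => hν (e ▸ IsSquare.zero)
  obtain ⟨Qm, hQu, -, hQf⟩ := hfin ν (fun δ hδ j hj hn => by
    have hg0 := (layer_det (hb g) (hp g) (he g) hG hgG hδ j).ne_zero
    have hh0 := (layer_det (hb g) (hp g) (he g) hHu hHg hδ j).ne_zero
    have hg0' := (layer_det (hb g) (hp g) (he g) hG hgG hδ₀ j₀).ne_zero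
    have hh0' := (layer_det (hb g) (hp g) (he g) hHu hHg hδ₀ j₀).ne_zero
    rw [mul_assoc, isSquare_mul_nonsquare (mul_ne_zero hg0 hh0) hν]
    intro hsq
    refine hns ?_
    obtain ⟨r, hr⟩ := ((hC δ δ₀ hδ hδ₀ j j₀ hj hj₀ hn hn₀).mul (hD δ δ₀ hδ hδ₀ j j₀ hj hj₀ hn hn₀)).mul hsq
    have := antiDet_ne_zero (F := F) j
    have := antiDet_ne_zero (F := F) j₀
    refine ⟨r / (antiDet F j * antiDet F j₀ * ((layer g.1 G (p g) (e g) (b g) δ j).det *
      (layer g.1 H (p g) (e g) (b g) δ j).det)), ?_⟩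
    field_simp
    linear_combination hr) hν0
  have hd := congrArg Matrix.det hQf
  rw [hH, Matrix.det_mul, Matrix.det_mul, Matrix.det_mul, Matrix.det_mul, Matrix.det_transpose, Matrix.det_transpose,
    Matrix.det_smul, Fintype.card_fin] at hd
  obtain ⟨k, hk⟩ := hN
  rw [show ν ^ N = ν ^ (2 * k) * ν by rw [hk, pow_succ], pow_mul'] at hd
  refine hν ⟨c.1.det / (Qm.det * ν ^ k), ?_⟩
  have := hG.ne_zero
  have := hQu.ne_zero
  have := pow_ne_zero k hν0
  field_simp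
  refine mul_left_cancel₀ hG.ne_zero ?_
  linear_combination hd

end CfsgLib.OmegaClasses
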